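import Mathlib

/-!
A group acting faithfully and additively on `F × F` and containing all of `SL₂(F)`: coordinates for
the normalizer of a root group.
-/

set_option autoImplicit false
set_option linter.style.haveILetI false
set_option linter.unusedSectionVars false

namespace CfsgLib.MinParFF.SL2Emb

variable {F : Type*} [Field F] {G : Type*} [Group G]

/-- A faithful additive action on `F × F` in which the subgroup `L` is `SL₂(F)`. -/
structure Nat2 (F : Type*) [Field F] {G : Type*} [Group G] (L : Subgroup G) where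
  act : G →* Equiv.Perm (F × F)
  add : ∀ g u v, act g (u + v) = act g u + act g v
  inj : Function.Injective act
  lin : ∀ g ∈ L, ∃ a b c d : F, a * d - b * c = 1 ∧
    ∀ v : F × F, act g v = (a * v.1 + b * v.2, c * v.1 + d * v.2)
  surj : ∀ a b c d : F, a * d - b * c = 1 → ∃ g ∈ L,
    ∀ v : F × F, act g v = (a * v.1 + b * v.2, c * v.1 + d * v.2)

namespace Nat2

variable {L : Subgroup G} (h : Nat2 F L)
include h

theorem act_zero (g : G) : h.act g 0 = 0 := by
  have := h.add g 0 0
  rw [add_zero] at this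
  exact left_eq_add.1 this

theorem act_neg (g : G) (v : F × F) : h.act g (-v) = -h.act g v := by
  refine eq_neg_of_add_eq_zero_left ?_
  rw [← h.add, neg_add_cancel, h.act_zero]

theorem act_sub (g : G) (u v : F × F) : h.act g (u - v) = h.act g u - h.act g v := by
  rw [sub_eq_add_neg, h.add, h.act_neg, ← sub_eq_add_neg]

theorem act_mul (g k : G) (v : F × F) : h.act (g * k) v = h.act g (h.act k v) := by
  rw [map_mul, Equiv.Perm.mul_apply]

theorem act_one (v : F × F) : h.act 1 v = v := by rw [map_one, Equiv.Perm.one_apply]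

theorem inv_act (g : G) (v : F × F) : h.act g⁻¹ (h.act g v) = v := by
  rw [← h.act_mul, inv_mul_cancel, h.act_one]

theorem act_inv (g : G) (v : F × F) : h.act g (h.act g⁻¹ v) = v := by
  rw [← h.act_mul, mul_inv_cancel, h.act_one]

theorem ext {g k : G} (e : ∀ v, h.act g v = h.act k v) : g = k := h.inj (Equiv.ext e)

/-- The upper root element. -/
noncomputable def ua (t : F) : G := Classical.choose (h.surj 1 t 0 1 (by ring))

/-- The lower root element. -/
noncomputable def ub (t : F) : G := Classical.choose (h.surj 1 0 t 1 (by ring))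

theorem ua_mem (t : F) : h.ua t ∈ L := (Classical.choose_spec (h.surj 1 t 0 1 (by ring))).1

theorem ub_mem (t : F) : h.ub t ∈ L := (Classical.choose_spec (h.surj 1 0 t 1 (by ring))).1

theorem ua_apply (t : F) (v : F × F) : h.act (h.ua t) v = (v.1 + t * v.2, v.2) := by
  rw [ua, (Classical.choose_spec (h.surj 1 t 0 1 (by ring))).2 v]
  ext <;> simp

theorem ub_apply (t : F) (v : F × F) : h.act (h.ub t) v = (v.1, v.2 + t * v.1) := by
  rw [ub, (Classical.choose_spec (h.surj 1 0 t 1 (by ring))).2 v]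
  ext <;> simp [add_comm]

theorem ua_zero : h.ua 0 = 1 := h.ext fun v => by simp [ua_apply]

theorem ua_add (s t : F) : h.ua (s + t) = h.ua s * h.ua t := h.ext fun v => by
  simp only [act_mul, ua_apply]
  ext
  · simp only; ring
  · rfl

theorem ua_neg (t : F) : h.ua (-t) = (h.ua t)⁻¹ :=
  eq_inv_of_mul_eq_one_left (by rw [← h.ua_add, neg_add_cancel, h.ua_zero])

theorem ua_inj {s t : F} (e : h.ua s = h.ua t) : s = t := by
  have := congrArg (fun g => h.act g ((0, 1) : F × F)) e
  simpa [ua_apply] using this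

/-- The upper root group. -/
noncomputable def A : Subgroup G where
  carrier := Set.range h.ua
  one_mem' := ⟨0, h.ua_zero⟩
  mul_mem' := by rintro _ _ ⟨s, rfl⟩ ⟨t, rfl⟩; exact ⟨s + t, h.ua_add s t⟩
  inv_mem' := by rintro _ ⟨s, rfl⟩; exact ⟨-s, h.ua_neg s⟩

theorem mem_A {g : G} : g ∈ h.A ↔ ∃ t, h.ua t = g := Iff.rfl

theorem ua_mem_A (t : F) : h.ua t ∈ h.A := ⟨t, rfl⟩

theorem A_le : h.A ≤ L := by rintro _ ⟨t, rfl⟩; exact h.ua_mem t

theorem card_A : Nat.card h.A = Nat.card F :=
  (Nat.card_congr (Equiv.ofBijective (fun t => (⟨h.ua t, h.ua_mem_A t⟩ : h.A))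
    ⟨fun _ _ e => h.ua_inj (congrArg Subtype.val e), fun ⟨_, t, e⟩ => ⟨t, Subtype.ext e⟩⟩)).symm

theorem conj_apply (g a : G) (v : F × F) :
    h.act (g * a * g⁻¹) (h.act g v) = h.act g (h.act a v) := by
  rw [h.act_mul, h.inv_act, h.act_mul]

theorem le_of_roots {K : Subgroup G} (ha : ∀ t, h.ua t ∈ K) (hb : ∀ t, h.ub t ∈ K) : L ≤ K := by
  have key : ∀ a b c d : F, a * d - b * c = 1 → c ≠ 0 → ∀ g : G,
      (∀ v : F × F, h.act g v = (a * v.1 + b * v.2, c * v.1 + d * v.2)) → g ∈ K := by
    intro a b c d hdet hc g hg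
    have e : g = h.ua ((a - 1) / c) * h.ub c * h.ua ((d - 1) / c) := h.ext fun v => by
      simp only [hg, act_mul, ua_apply, ub_apply]
      have hb' : b = (a * d - 1) / c := by
        field_simp
        linear_combination -hdet
      ext
      · simp only
        rw [hb']
        field_simp
        ring
      · simp only
        field_simp
        ring
    rw [e]
    exact K.mul_mem (K.mul_mem (ha _) (hb _)) (ha _)
  intro g hg
  obtain ⟨a, b, c, d, hdet, hg'⟩ := h.lin g hg
  by_cases hc : c = 0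
  · have ha0 : a ≠ 0 := fun h0 => by simp [h0, hc] at hdet
    have : h.ub 1 * g ∈ K := by
      refine key a b a (d + b) (by rw [hc] at hdet; linear_combination hdet) ha0 _ fun v => ?_
      simp only [act_mul, ub_apply, hg', hc]
      ext
      · rfl
      · simp only; ring
    simpa using K.mul_mem (K.inv_mem (hb 1)) this
  · exact key a b c d hdet hc g hg'

/-- `σ` is the field automorphism by which `g` acts on the root group. -/
def IsSig (g : G) (σ : RingAut F) : Prop :=
  ∃ c : F, c ≠ 0 ∧ ∀ t, g * h.ua t * g⁻¹ = h.ua (c * σ t)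

theorem isSig_unique {g : G} {σ τ : RingAut F} (hσ : h.IsSig g σ) (hτ : h.IsSig g τ) : σ = τ := by
  obtain ⟨c, hc, hc'⟩ := hσ
  obtain ⟨d, hd, hd'⟩ := hτ
  have hcd : c = d := by
    simpa using h.ua_inj ((hc' 1).symm.trans (hd' 1))
  refine RingEquiv.ext fun t => mul_left_cancel₀ hc ?_
  rw [h.ua_inj ((hc' t).symm.trans (hd' t)), hcd]

theorem isSig_mul {g k : G} {σ τ : RingAut F} (hσ : h.IsSig g σ) (hτ : h.IsSig k τ) :
    h.IsSig (g * k) (σ * τ) := by
  obtain ⟨c, hc, hc'⟩ := hσ
  obtain ⟨d, hd, hd'⟩ := hτ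
  refine ⟨c * σ d, mul_ne_zero hc ((map_ne_zero σ).2 hd), fun t => ?_⟩
  rw [show g * k * h.ua t * (g * k)⁻¹ = g * (k * h.ua t * k⁻¹) * g⁻¹ by group, hd', hc']
  rw [map_mul, mul_assoc]
  rfl

theorem isSig_one : h.IsSig 1 1 := ⟨1, one_ne_zero, fun t => by simp⟩

variable [Finite F]

/-- Elements normalizing the root group respect the fixed line and are semilinear on it and on the
quotient by it. -/
theorem semi {g : G} (hg : g ∈ Subgroup.normalizer (h.A : Set G)) :
    ∃ σ : RingAut F, ∃ c k : F, c ≠ 0 ∧ k ≠ 0 ∧ (∀ t, g * h.ua t * g⁻¹ = h.ua (c * σ t)) ∧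
      (∀ x, h.act g (x, 0) = (c * k * σ x, 0)) ∧ ∀ v, (h.act g v).2 = k * σ v.2 := by
  choose s hs using fun t => (Subgroup.mem_normalizer_iff.1 hg (h.ua t)).1 (h.ua_mem_A t)
  have e : ∀ t y, h.act g (t * y, 0) = (s t * (h.act g (0, y)).2, 0) := by
    intro t y
    have h1 := h.conj_apply g (h.ua t) (0, y)
    rw [← hs t, h.ua_apply, h.ua_apply] at h1
    simp only [zero_add] at h1
    have h2 : ((t * y, y) : F × F) = (t * y, 0) + (0, y) := by simp
    rw [h2, h.add] at h1
    rw [eq_sub_of_add_eq h1.symm]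
    ext <;> simp
  set β := fun y : F => (h.act g (0, y)).2 with hβ
  have eα : ∀ x, h.act g (x, 0) = (s x * β 1, 0) := fun x => by simpa using e x 1
  have αinj : ∀ x, x ≠ 0 → s x * β 1 ≠ 0 := by
    intro x hx h0
    apply hx
    have := eα x
    rw [h0, Prod.mk_zero_zero] at this
    have := (h.act g).injective (this.trans (h.act_zero g).symm)
    exact congrArg Prod.fst this
  have hs1 : s 1 ≠ 0 := fun h0 => αinj 1 one_ne_zero (by simp [h0])
  have hβ1 : β 1 ≠ 0 := fun h0 => αinj 1 one_ne_zero (by simp [h0])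
  have hmul : ∀ t y, s (t * y) * β 1 = s t * β y := fun t y =>
    congrArg Prod.fst ((eα (t * y)).symm.trans (e t y))
  have hy : ∀ y, β y = β 1 * (s y / s 1) := by
    intro y
    have := hmul 1 y
    rw [one_mul] at this
    field_simp
    linear_combination -this
  have hadd : ∀ a b, s (a + b) = s a + s b := by
    intro a b
    apply h.ua_inj
    rw [h.ua_add, hs, hs, hs, h.ua_add]
    group
  have hmul' : ∀ t y, s (t * y) / s 1 = s t / s 1 * (s y / s 1) := by
    intro t y
    have := hmul t y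
    rw [hy y] at this
    field_simp at this ⊢
    linear_combination this
  let f : F →+* F :=
    { toFun := fun t => s t / s 1
      map_one' := div_self hs1
      map_mul' := hmul'
      map_zero' := by
        have := hadd 0 0
        rw [add_zero] at this
        rw [left_eq_add.1 this, zero_div]
      map_add' := fun a b => by rw [hadd, add_div] }
  let σ : RingAut F := RingEquiv.ofBijective f
    ⟨f.injective, Finite.injective_iff_surjective.1 f.injective⟩
  have hσ : ∀ t, s t = s 1 * σ t := fun t => by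
    show s t = s 1 * (s t / s 1)
    field_simp
  refine ⟨σ, s 1, β 1, hs1, hβ1, fun t => by rw [← hσ, hs], fun x => ?_, fun v => ?_⟩
  · rw [eα, hσ x]
    ext <;> simp <;> ring
  · have h1 : v = (v.1, 0) + (0, v.2) := by simp
    conv_lhs => rw [h1, h.add, Prod.snd_add, eα, zero_add]
    exact hy v.2

theorem exists_isSig {g : G} (hg : g ∈ Subgroup.normalizer (h.A : Set G)) : ∃ σ, h.IsSig g σ := by
  obtain ⟨σ, c, -, hc, -, he, -⟩ := h.semi hg
  exact ⟨σ, c, hc, he⟩

/-- The field automorphism of an element normalizing the root group. -/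
noncomputable def θ : ↥(Subgroup.normalizer (h.A : Set G)) →* RingAut F where
  toFun g := Classical.choose (h.exists_isSig g.2)
  map_one' := h.isSig_unique (Classical.choose_spec (h.exists_isSig (one_mem _))) h.isSig_one
  map_mul' g k := h.isSig_unique (Classical.choose_spec (h.exists_isSig (g * k).2))
    (h.isSig_mul (Classical.choose_spec (h.exists_isSig g.2)) (Classical.choose_spec (h.exists_isSig k.2)))

theorem θ_eq {g : G} (hg : g ∈ Subgroup.normalizer (h.A : Set G)) {σ : RingAut F}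
    (hσ : h.IsSig g σ) : h.θ ⟨g, hg⟩ = σ :=
  h.isSig_unique (Classical.choose_spec (h.exists_isSig hg)) hσ

/-- The form of an element normalizing both `L` and the root group. -/
theorem form {g : G} (hg : g ∈ Subgroup.normalizer (h.A : Set G))
    (hgL : g ∈ Subgroup.normalizer (L : Set G)) :
    ∃ c k r : F, c ≠ 0 ∧ k ≠ 0 ∧ (∀ t, g * h.ua t * g⁻¹ = h.ua (c * h.θ ⟨g, hg⟩ t)) ∧
      ∀ v, h.act g v = (c * k * h.θ ⟨g, hg⟩ v.1 + r * (k * h.θ ⟨g, hg⟩ v.2),
        k * h.θ ⟨g, hg⟩ v.2) := by
  obtain ⟨σ, c, k, hc, hk, he, hx, hy⟩ := h.semi hg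
  rw [h.θ_eq hg ⟨c, hc, he⟩]
  have hm := (Subgroup.mem_normalizer_iff.1 hgL (h.ub 1)).1 (h.ub_mem 1)
  obtain ⟨a, b, c', d, -, hlin⟩ := h.lin _ hm
  set γ := (h.act g (0, 1)).1 with hγ
  have he1 : h.act g (0, 1) = (γ, k) := by
    refine Prod.ext rfl ?_
    simpa using hy (0, 1)
  have hfix : h.act (g * h.ub 1 * g⁻¹) (γ, k) = (γ, k) := by
    rw [← he1, h.conj_apply, h.ub_apply]
    simp
  rw [hlin] at hfix
  have hsmul : ∀ l : F, h.act (g * h.ub 1 * g⁻¹) (l * γ, l * k) = (l * γ, l * k) := by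
    intro l
    obtain ⟨h1, h2⟩ := Prod.ext_iff.1 hfix
    simp only at h1 h2
    rw [hlin]
    ext
    · simp only; linear_combination l * h1
    · simp only; linear_combination l * h2
  have hline : ∀ y, h.act g (0, y) = (σ y * γ, σ y * k) := by
    intro y
    obtain ⟨u, hu⟩ : ∃ u, h.act g u = (σ y * γ, σ y * k) := ⟨_, h.act_inv g _⟩
    have h1 : h.act (h.ub 1) u = u := by
      apply (h.act g).injective
      rw [← h.conj_apply, hu, hsmul]
    rw [h.ub_apply, one_mul, Prod.ext_iff] at h1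
    have hu1 : u.1 = 0 := by simpa using h1.2
    have hu2 : u.2 = y := by
      have h2 := hy u
      rw [hu, mul_comm (σ y) k] at h2
      exact σ.injective (mul_left_cancel₀ hk h2.symm)
    rw [← hu, ← hu1, ← hu2]
  refine ⟨c, k, γ / k, hc, hk, he, fun v => ?_⟩
  have h1 : v = (v.1, 0) + (0, v.2) := by simp
  conv_lhs => rw [h1, h.add, hx, hline]
  ext <;> simp <;> field_simp

theorem θ_eq_one_of_mem {g : G} (hg : g ∈ Subgroup.normalizer (h.A : Set G)) (hgL : g ∈ L) :
    h.θ ⟨g, hg⟩ = 1 := by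
  obtain ⟨c, k, r, hc, hk, -, hf⟩ := h.form hg (Subgroup.le_normalizer hgL)
  obtain ⟨a, b, c', d, -, hlin⟩ := h.lin g hgL
  have e : ∀ x, a * x = c * k * h.θ ⟨g, hg⟩ x := fun x => by
    have := congrArg Prod.fst ((hlin (x, 0)).symm.trans (hf (x, 0)))
    simpa using this
  have e1 : a = c * k := by simpa using e 1
  refine RingEquiv.ext fun x => mul_left_cancel₀ (mul_ne_zero hc hk) ?_
  rw [← e, e1]
  rfl

omit [Finite F] in
theorem eq_one_of_pow {p n : ℕ} [Fact p.Prime] [CharP F p] {k : F} (hk : k ^ p ^ n = 1) : k = 1 := by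
  have h1 : (k - 1) ^ p ^ n = 0 := by rw [sub_pow_char_pow, hk, one_pow, sub_self]
  exact sub_eq_zero.1 (eq_zero_of_pow_eq_zero h1)

theorem mem_A_of_θ {p n : ℕ} [Fact p.Prime] [CharP F p] {g : G}
    (hg : g ∈ Subgroup.normalizer (h.A : Set G)) (hgL : g ∈ Subgroup.normalizer (L : Set G))
    (hn : g ^ p ^ n = 1) (hθ : h.θ ⟨g, hg⟩ = 1) : g ∈ h.A := by
  obtain ⟨c, k, r, -, -, -, hf⟩ := h.form hg hgL
  simp only [hθ, RingAut.one_apply] at hf
  have hy : ∀ (m : ℕ) (v : F × F), (h.act (g ^ m) v).2 = k ^ m * v.2 := by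
    intro m
    induction m with
    | zero => intro v; simp
    | succ m ih => intro v; rw [pow_succ', h.act_mul, hf]; simp only; rw [ih]; ring
  have hx : ∀ (m : ℕ) (x : F), h.act (g ^ m) (x, 0) = ((c * k) ^ m * x, 0) := by
    intro m
    induction m with
    | zero => intro x; simp
    | succ m ih =>
      intro x
      rw [pow_succ', h.act_mul, ih, hf]
      ext
      · simp only; ring
      · simp
  have hk : k = 1 := by
    refine h.eq_one_of_pow (p := p) (n := n) ?_
    have := hy (p ^ n) (0, 1)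
    rw [hn, h.act_one] at this
    simpa using this.symm
  have hc : c * k = 1 := by
    refine h.eq_one_of_pow (p := p) (n := n) ?_
    have := hx (p ^ n) 1
    rw [hn, h.act_one] at this
    simpa using (congrArg Prod.fst this).symm
  refine ⟨r, h.ext fun v => ?_⟩
  rw [hf, h.ua_apply, hc, hk]
  simp

theorem eq_one_of_central {p n : ℕ} [Fact p.Prime] [CharP F p] {g : G}
    (hn : g ^ p ^ n = 1) (hg : ∀ l ∈ L, g * l = l * g) : g = 1 := by
  have hgA : g ∈ Subgroup.centralizer (h.A : Set G) :=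
    Subgroup.mem_centralizer_iff.2 fun a ha => (hg a (h.A_le ha)).symm
  have hgL : g ∈ Subgroup.centralizer (L : Set G) :=
    Subgroup.mem_centralizer_iff.2 fun a ha => (hg a ha).symm
  have hgN := Subgroup.centralizer_le_normalizer _ hgA
  have hθ : h.θ ⟨g, hgN⟩ = 1 := h.θ_eq hgN ⟨1, one_ne_zero, fun t => by
    rw [hg _ (h.ua_mem t), mul_inv_cancel_right, one_mul]
    rfl⟩
  obtain ⟨r, hr⟩ := h.mem_A_of_θ hgN (Subgroup.centralizer_le_normalizer _ hgL) hn hθ
  have := congrArg (fun z => h.act z ((1, 0) : F × F)) (hg _ (h.ub_mem 1))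
  simp [← hr, h.act_mul, h.ua_apply, h.ub_apply] at this
  rw [← hr, this, h.ua_zero]

end Nat2

end CfsgLib.MinParFF.SL2Emb
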