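import Cfsg.Agent.MinParFF.SL2Embedded.Four
import Cfsg.Agent.MinParFF.StronglyEmbedded
import Cfsg.Agent.CommutingSLTwo.Basic
import Cfsg.Agent.Eq.Def_Transfer
import Cfsg.Prelude.Def_Transfer
import Cfsg.Agent.Eq.Def_CaseTheorems
import Cfsg.Prelude.Def_CaseTheorems
import Cfsg.Agent.Eq.Def_BaumannBlocks
import Cfsg.Prelude.Def_BaumannBlocks

/-!
A natural `SL₂(F)` with a full Sylow subgroup in its normalizer is normal, or the group is `Alt 7`.
-/

set_option autoImplicit false
set_option linter.style.haveILetI false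
set_option linter.unusedSectionVars false

open Cfsg

namespace CfsgLib.MinParFF.SL2Emb

variable {X : Type*} [Group X] [Finite X] {F : Type} [Field F]

theorem exists_nat2 (V G L : Subgroup X) (hGV : G ≤ Subgroup.normalizer (V : Set X))
    (hfaith : G ⊓ Subgroup.centralizer (V : Set X) = ⊥) (hLG : L ≤ G)
    (hnat : IsNaturalSL2Module F V L) :
    ∃ (h : Nat2 F (L.subgroupOf G)) (E : Additive V ≃+ F × F), ∀ (g : G) (v w : V),
      (w : X) = g * v * (g : X)⁻¹ → h.act g (E (Additive.ofMul v)) = E (Additive.ofMul w) := by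
  obtain ⟨-, ρ, ψ, hρ, -, hact⟩ := hnat
  let E : Additive V ≃+ F × F := ψ.trans (LinearEquiv.finTwoArrow F F).toAddEquiv
  let c : G → V → V := fun g v => ⟨(g : X) * v * (g : X)⁻¹,
    (Subgroup.mem_normalizer_iff.1 (hGV g.2) v).1 v.2⟩
  have hc1 : ∀ v, c 1 v = v := fun v => Subtype.ext (by simp [c])
  have hcmul : ∀ g k v, c (g * k) v = c g (c k v) := fun g k v => Subtype.ext (by simp [c, mul_assoc])
  let a₀ : G → F × F → F × F := fun g v => E (Additive.ofMul (c g (Additive.toMul (E.symm v))))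
  have h1 : ∀ v, a₀ 1 v = v := fun v => by simp [a₀, hc1]
  have hmul : ∀ g k v, a₀ (g * k) v = a₀ g (a₀ k v) := fun g k v => by simp [a₀, hcmul]
  let act : G →* Equiv.Perm (F × F) :=
    { toFun := fun g =>
        { toFun := a₀ g
          invFun := a₀ g⁻¹
          left_inv := fun v => by rw [← hmul, inv_mul_cancel, h1]
          right_inv := fun v => by rw [← hmul, mul_inv_cancel, h1] }
      map_one' := Equiv.ext h1
      map_mul' := fun g k => Equiv.ext (hmul g k) }
  have hE : ∀ (g : G) (v : V), act g (E (Additive.ofMul v)) = E (Additive.ofMul (c g v)) := fun g v => by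
    show a₀ g _ = _
    simp [a₀]
  have hlin : ∀ (l : L) (u : F × F), act ⟨l, hLG l.2⟩ u =
      ((ρ l : Matrix (Fin 2) (Fin 2) F) 0 0 * u.1 + (ρ l : Matrix (Fin 2) (Fin 2) F) 0 1 * u.2,
        (ρ l : Matrix (Fin 2) (Fin 2) F) 1 0 * u.1 + (ρ l : Matrix (Fin 2) (Fin 2) F) 1 1 * u.2) := by
    intro l u
    obtain ⟨v, rfl⟩ : ∃ v, E (Additive.ofMul v) = u :=
      ⟨Additive.toMul (E.symm u), by simp⟩
    obtain ⟨w, hw, hwe⟩ := hact l v
    rw [hE, show c ⟨l, hLG l.2⟩ v = w from Subtype.ext hw.symm]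
    simp [E, hwe]
  refine ⟨⟨act, fun g u v => ?_, ?_, ?_, ?_⟩, E, fun g v w hw => ?_⟩
  · show a₀ g (u + v) = a₀ g u + a₀ g v
    simp only [a₀, map_add, toMul_add]
    rw [← map_add]
    exact congrArg E (congrArg Additive.ofMul (Subtype.ext (by
      show (g : X) * ((Additive.toMul (E.symm u) : V) * (Additive.toMul (E.symm v) : V) : X) * (g : X)⁻¹ =
        ((g : X) * (Additive.toMul (E.symm u) : V) * (g : X)⁻¹) *
          ((g : X) * (Additive.toMul (E.symm v) : V) * (g : X)⁻¹)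
      group)))
  · rw [injective_iff_map_eq_one]
    intro g hg
    have : (g : X) ∈ G ⊓ Subgroup.centralizer (V : Set X) := by
      refine ⟨g.2, Subgroup.mem_centralizer_iff.2 fun v hv => ?_⟩
      have h2 := hE g ⟨v, hv⟩
      rw [hg, Equiv.Perm.one_apply] at h2
      have h3 := congrArg Subtype.val (Additive.ofMul.injective (E.injective h2))
      exact (mul_inv_eq_iff_eq_mul.1 h3.symm).symm
    rw [hfaith, Subgroup.mem_bot] at this
    exact Subtype.ext this
  · intro g hg
    have hdet := (ρ ⟨g, hg⟩).2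
    rw [Matrix.det_fin_two] at hdet
    exact ⟨_, _, _, _, hdet, hlin ⟨g, hg⟩⟩
  · intro a b cc d hdet
    obtain ⟨l, hl⟩ := hρ ⟨!![a, b; cc, d], by rw [Matrix.det_fin_two_of]; exact hdet⟩
    refine ⟨⟨l, hLG l.2⟩, l.2, fun u => ?_⟩
    rw [hlin, hl]
    simp
  · show act g _ = _
    rw [hE]
    exact congrArg E (congrArg Additive.ofMul (Subtype.ext hw.symm))

theorem main {p : ℕ} [hp : Fact p.Prime] (F : Type) [Field F] [Fintype F] [CharP F p]
    (V G L : Subgroup X) (hV : IsElementaryAbelian p V) (hGV : G ≤ Subgroup.normalizer (V : Set X))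
    (hfaith : G ⊓ Subgroup.centralizer (V : Set X) = ⊥) (hLG : L ≤ G)
    (hnat : IsNaturalSL2Module F V L) (hLiso : Nonempty (↥L ≃* Matrix.SpecialLinearGroup (Fin 2) F))
    (hSyl : ∀ S : Sylow p ↥(G ⊓ Subgroup.normalizer (L : Set X)), ∀ P : Sylow p ↥G,
      Nat.card S = Nat.card P) :
    (L.subgroupOf G).Normal ∨
      (Fintype.card F = 4 ∧ Nonempty (↥G ≃* ↥(alternatingGroup (Fin 7)))) := by
  classical
  obtain ⟨eL⟩ := hLiso
  obtain ⟨h, E, hE⟩ := exists_nat2 V G L hGV hfaith hLG hnat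
  have hAcomm : ∀ a ∈ h.A, ∀ b ∈ h.A, a * b = b * a := by
    rintro _ ⟨u, rfl⟩ _ ⟨v, rfl⟩
    rw [← h.ua_add, add_comm, h.ua_add]
  have huap : ∀ t, h.ua t ^ p = 1 := fun t =>
    Nat2.Q_exp (h := h) ⟨fun x => by simp [h.ua_apply], fun v => by simp [h.ua_apply]⟩
  have hAp : IsPGroup p h.A := fun ⟨a, ha⟩ => ⟨1, by
    obtain ⟨t, rfl⟩ := ha
    exact Subtype.ext (by simpa using huap t)⟩
  -- a Sylow subgroup of `G` in the normalizer of `L`
  set N := G ⊓ Subgroup.normalizer (L : Set X) with hN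
  let j : N →* G := Subgroup.inclusion inf_le_left
  have hj : Function.Injective j := Subgroup.inclusion_injective _
  obtain ⟨S₁, hS₁⟩ := (hAp.comap_of_injective j hj).exists_le_sylow
  set S : Subgroup G := (S₁ : Subgroup N).map j with hS
  have hAS : h.A ≤ S := fun a ha =>
    ⟨⟨a, a.2, Subgroup.le_normalizer (Subgroup.mem_subgroupOf.1 (h.A_le ha))⟩,
      hS₁ (show j _ ∈ h.A from ha), rfl⟩
  have hSp : IsPGroup p S := S₁.isPGroup'.map _
  obtain ⟨P₀, hP₀⟩ := hSp.exists_le_sylow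
  have hSP : S = P₀ := Subgroup.eq_of_le_of_card_ge hP₀ (by
    rw [← hSyl S₁ P₀, hS]
    exact (Subgroup.card_map_of_injective hj).ge)
  have hSyl' : h.Syl p S :=
    { isP := hSp
      A_le := hAS
      norm := by
        rintro _ ⟨y, -, rfl⟩
        refine Subgroup.mem_normalizer_fintype fun z hz => ?_
        exact Subgroup.mem_subgroupOf.2
          ((Subgroup.mem_normalizer_iff.1 y.2.2 (z : X)).1 (Subgroup.mem_subgroupOf.1 hz))
      sylP := fun P hP => by
        obtain ⟨P₁, hP₁⟩ := hP.exists_le_sylow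
        obtain ⟨u, hu⟩ := MulAction.exists_smul_eq G P₁ P₀
        refine ⟨u, ?_⟩
        rintro _ ⟨z, hz, rfl⟩
        rw [hSP, ← hu, Sylow.coe_subgroup_smul]
        exact ⟨z, hP₁ hz, rfl⟩ }
  have hcardSL := CfsgLib.CommutingSLTwo.card_SL2 (F := F)
  by_cases hgood : h.Good S
  swap
  · rw [Nat2.Good, not_or, not_ne_iff] at hgood
    obtain ⟨hF, hnS⟩ := hgood
    have hp2 : p = 2 := by
      obtain ⟨n, hpn, hn⟩ := FiniteField.card F p
      rw [← Nat.card_eq_fintype_card, hF] at hn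
      have : p ∣ 2 ^ 2 := by
        rw [show (2 : ℕ) ^ 2 = 4 by norm_num, hn]
        exact dvd_pow_self _ n.2.ne'
      exact (Nat.prime_dvd_prime_iff_eq hpn Nat.prime_two).1 (hpn.dvd_of_dvd_pow this)
    subst hp2
    have hL60 : Nat.card (L.subgroupOf G) = 60 := by
      change Nat.card (Matrix.SpecialLinearGroup (Fin 2) F) * _ = _ at hcardSL
      rw [← Nat.card_eq_fintype_card (α := F), hF] at hcardSL
      rw [Nat.card_congr ((Subgroup.subgroupOfEquivOfLe hLG).trans eL).toEquiv]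
      exact Nat.eq_of_mul_eq_mul_right (show 0 < 4 - 1 by norm_num) (hcardSL.trans (by norm_num))
    refine (Nat2.four_case hSyl' hF hnS ((Subgroup.subgroupOfEquivOfLe hLG).trans eL) hL60).imp_right
      fun hA7 => ⟨?_, hA7⟩
    rwa [Nat.card_eq_fintype_card] at hF
  left
  obtain ⟨K, hKn, hLK, hKp⟩ := hSyl'.exists_normal hgood
  set K' := K.map G.subtype with hK'
  set H := pElementClosure p K' with hH
  set A' := h.A.map G.subtype with hA'
  have hKG : K' ≤ G := Subgroup.map_subtype_le _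
  have hHK : H ≤ K' := (Subgroup.closure_le _).2 fun x hx => hx.1
  have hHG : H ≤ G := hHK.trans hKG
  have hpel : ∀ x : G, x ∈ K → x ^ p = 1 → (x : X) ∈ H := fun x hx hxp => by
    refine Subgroup.subset_closure ⟨⟨x, hx, rfl⟩, ?_⟩
    have := (Nat.dvd_prime hp.1).1 (orderOf_dvd_of_pow_eq_one (show (x : X) ^ p = 1 by
      rw [← Subgroup.coe_pow, hxp, Subgroup.coe_one]))
    rcases this with h1 | h1
    · exact ⟨0, by rw [h1, pow_zero]⟩
    · exact ⟨1, by rw [h1, pow_one]⟩
  have hLH' : L.subgroupOf G ≤ H.subgroupOf G := by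
    refine h.le_of_roots (fun t => hpel _ (hLK (h.ua_mem t)) (huap t)) fun t =>
      hpel _ (hLK (h.ub_mem t)) ?_
    obtain ⟨w, -, hw⟩ := h.surj 0 1 (-1) 0 (by ring)
    have e : h.ub t = w * h.ua (-t) * w⁻¹ := eq_mul_inv_iff_mul_eq.2 (h.ext fun v => by
      simp only [h.act_mul, hw, h.ua_apply, h.ub_apply]
      ext <;> simp only <;> ring)
    rw [e, conj_pow, huap, mul_one, mul_inv_cancel]
  have hLH : L ≤ H := fun x hx =>
    hLH' (show (⟨x, hLG hx⟩ : G) ∈ L.subgroupOf G from hx)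
  have hAH : A' ≤ H := by
    rintro _ ⟨a, ha, rfl⟩
    exact hLH (h.A_le ha)
  have hAG : A' ≤ G := Subgroup.map_subtype_le _
  have hcardA : Nat.card A' = Fintype.card F := by
    rw [hA', Subgroup.card_map_of_injective G.subtype_injective, h.card_A, Nat.card_eq_fintype_card]
  -- `A'` is a Sylow subgroup of `H`
  have hA'p : IsPGroup p (A'.subgroupOf H) :=
    (hAp.map G.subtype).of_equiv (Subgroup.subgroupOfEquivOfLe hAH).symm
  obtain ⟨S', hS'⟩ := hA'p.exists_le_sylow
  have hS'eq : A'.subgroupOf H = S' := by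
    refine Subgroup.eq_of_le_of_card_ge hS' ?_
    let i : H →* G := Subgroup.inclusion hHG
    have hle : (S' : Subgroup H).map i ≤ K := by
      rintro _ ⟨y, -, rfl⟩
      obtain ⟨z, hz, hzy⟩ := hHK y.2
      rwa [show i y = z from Subtype.ext hzy.symm]
    obtain ⟨u, hu⟩ := hKp _ hle (S'.isPGroup'.map i)
    have h2 := Subgroup.card_le_of_le hu
    rw [card_conjSub, Subgroup.card_map_of_injective (Subgroup.inclusion_injective hHG), h.card_A] at h2
    rw [Nat.card_congr (Subgroup.subgroupOfEquivOfLe hAH).toEquiv, hcardA, ← Nat.card_eq_fintype_card]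
    exact h2
  have hX : IsStronglyPEmbedded p ((H ⊓ Subgroup.normalizer (A' : Set X)).subgroupOf H) := by
    refine ⟨?_, ?_, S', ?_⟩
    · refine dvd_trans ?_ (Subgroup.card_dvd_of_le hAH)
      rw [hcardA]
      obtain ⟨n, -, hn⟩ := FiniteField.card F p
      rw [hn]
      exact dvd_pow_self _ n.2.ne'
    · intro htop
      obtain ⟨w, hwL, hw⟩ := h.surj 0 1 (-1) 0 (by ring)
      have hwH : (w : X) ∈ H := hLH hwL
      have h1 : (⟨(w : X), hwH⟩ : H) ∈ (H ⊓ Subgroup.normalizer (A' : Set X)).subgroupOf H :=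
        htop ▸ Subgroup.mem_top _
      obtain ⟨z, hz, hzw⟩ := (Subgroup.mem_normalizer_iff.1 h1.2 _).1
        (Subgroup.mem_map_of_mem G.subtype (h.ua_mem_A 1))
      obtain ⟨s, hs⟩ := hz
      have h2 : w * h.ua 1 = h.ua s * w := by
        rw [← mul_inv_eq_iff_eq_mul, hs]
        exact Subtype.ext hzw.symm
      have h3 := congrArg (fun g => h.act g ((0, 1) : F × F)) h2
      simp [hw, h.ua_apply] at h3
    · refine iSup_le fun Q => ?_
      intro x hx
      refine ⟨x.2, ?_⟩
      have hQ0 : (Q : Subgroup H) ≠ ⊥ := fun h0 => Q.2.2 fun B _ _ => by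
        haveI : Subsingleton (Q : Subgroup H) :=
          ⟨fun a b => Subtype.ext ((Subgroup.mem_bot.1 (h0 ▸ a.2 : (a : H) ∈ ⊥)).trans
            (Subgroup.mem_bot.1 (h0 ▸ b.2 : (b : H) ∈ ⊥)).symm)⟩
        simp
      obtain ⟨y, hy, hy1⟩ : ∃ y : H, y ∈ (Q : Subgroup H) ∧ y ≠ 1 := by
        obtain ⟨y₀, hy₀⟩ := Subgroup.ne_bot_iff_exists_ne_one.1 hQ0
        exact ⟨y₀, y₀.2, fun h1 => hy₀ (Subtype.ext h1)⟩
      have h1 : (y : X) ∈ A' := hS'eq.ge (Q.2.1 hy)
      have h2 : (x : X) * y * (x : X)⁻¹ ∈ A' :=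
        hS'eq.ge (Q.2.1 ((Subgroup.mem_normalizer_iff.1 hx y).1 hy))
      obtain ⟨a, ha, hay⟩ := h1
      obtain ⟨b, hb, hby⟩ := h2
      have hxn : (⟨x, hHG x.2⟩ : G) ∈ Subgroup.normalizer (h.A : Set G) := by
        refine hSyl'.ti hgood ha (fun h0 => hy1 (Subtype.ext ?_)) ?_
        · rw [← hay, h0]
          rfl
        · rwa [show (⟨x, hHG x.2⟩ : G) * a * (⟨x, hHG x.2⟩ : G)⁻¹ = b from Subtype.ext (by
            show (x : X) * G.subtype a * (x : X)⁻¹ = (b : X)
            rw [hay]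
            exact hby.symm)]
      refine Subgroup.mem_normalizer_fintype ?_
      rintro _ ⟨z, hz, rfl⟩
      exact ⟨_, (Subgroup.mem_normalizer_iff.1 hxn z).1 hz, rfl⟩
  have hHV : H ≤ Subgroup.normalizer (V : Set X) := hHG.trans hGV
  have hHf : H ⊓ Subgroup.centralizer (V : Set X) = ⊥ :=
    eq_bot_iff.2 ((inf_le_inf_right _ hHG).trans hfaith.le)
  have hVcard : Nat.card V = Fintype.card F * Fintype.card F := by
    rw [Nat.card_congr (Additive.ofMul.trans E.toEquiv), Nat.card_prod, Nat.card_eq_fintype_card]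
  have hFF : IsFFModuleFor p V H := by
    refine ⟨hHV, A', hAH, hAG.trans hGV, ?_, ?_, ?_, ?_⟩
    · rw [Subgroup.commutator_le]
      rintro _ ⟨a, ha, rfl⟩ _ ⟨b, hb, rfl⟩
      rw [← map_commutatorElement, commutatorElement_eq_one_iff_mul_comm.2 (hAcomm a ha b hb), map_one]
      exact one_mem _
    · rintro _ ⟨_, ⟨t, rfl⟩, rfl⟩
      rw [← map_pow, huap, map_one]
      exact one_mem _
    · intro hle
      have hm : G.subtype (h.ua 1) ∈ G ⊓ Subgroup.centralizer (V : Set X) :=
        ⟨(h.ua 1).2, hle (Subgroup.mem_map_of_mem _ (h.ua_mem_A 1))⟩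
      rw [hfaith, Subgroup.mem_bot] at hm
      exact one_ne_zero (h.ua_inj ((Subtype.ext hm : h.ua 1 = 1).trans h.ua_zero.symm))
    · have hbot : A' ⊓ Subgroup.centralizer (V : Set X) = ⊥ :=
        eq_bot_iff.2 ((inf_le_inf_right _ hAG).trans hfaith.le)
      rw [hbot, Subgroup.card_bot, mul_one, hcardA, hVcard]
      refine Nat.mul_le_mul_left _ ?_
      rw [← Nat.card_eq_fintype_card]
      refine Nat.card_le_card_of_injective
        (fun x : F => ⟨(Additive.toMul (E.symm (x, 0)) : V), (Additive.toMul (E.symm (x, 0))).2, ?_⟩)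
        fun x y e => ?_
      · refine Subgroup.mem_centralizer_iff.2 ?_
        rintro _ ⟨_, ⟨t, rfl⟩, rfl⟩
        set v := Additive.toMul (E.symm (x, 0)) with hv
        have hmem := (Subgroup.mem_normalizer_iff.1 (hGV (h.ua t).2) (v : X)).1 v.2
        have h1 := hE (h.ua t) v ⟨_, hmem⟩ rfl
        rw [show E (Additive.ofMul v) = (x, 0) by simp [hv], h.ua_apply] at h1
        have h2 : v = ⟨_, hmem⟩ := by
          apply Additive.ofMul.injective
          apply E.injective
          rw [← h1]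
          simp [hv]
        exact (mul_inv_eq_iff_eq_mul.1 (congrArg Subtype.val h2).symm)
      · exact congrArg Prod.fst (E.symm.injective (Additive.toMul.injective (Subtype.ext
          (congrArg Subtype.val e :))))
  have hgen : pElementClosure p H = H := by
    refine le_antisymm ((Subgroup.closure_le _).2 fun x hx => hx.1) ?_
    conv_lhs => rw [hH]
    exact Subgroup.closure_mono fun x hx => ⟨Subgroup.subset_closure hx, hx.2⟩
  obtain ⟨F', i1, i2, ⟨eH⟩, hact⟩ := stronglyEmbedded_natural V H hV hHV hHf hgen _ hX hFF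
  obtain ⟨-, -, ρ', ψ', -, hψ, hker, -⟩ := hact
  have hfix : ∀ u : V, (u : X) ∈ V ⊓ Subgroup.centralizer (H : Set X) → u = 1 := by
    intro u hu
    have key : ∀ g : G, g ∈ L.subgroupOf G → h.act g (E (Additive.ofMul u)) = E (Additive.ofMul u) := by
      intro g hg
      refine hE g u u ?_
      rw [Subgroup.mem_centralizer_iff.1 hu.2 (g : X) (hLH hg), mul_inv_cancel_right]
    have e1 := key _ (h.ua_mem 1)
    have e2 := key _ (h.ub_mem 1)
    rw [h.ua_apply, Prod.ext_iff] at e1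
    rw [h.ub_apply, Prod.ext_iff] at e2
    apply Additive.ofMul.injective
    apply E.injective
    rw [ofMul_one, map_zero]
    ext
    · simpa using e2.2
    · simpa using e1.1
  have hψbij : Function.Bijective ψ' :=
    ⟨(injective_iff_map_eq_one _).2 fun u hu => hfix u ((hker u).1 hu), hψ⟩
  have hq : Fintype.card F' = Fintype.card F := by
    have := Nat.card_congr (Equiv.ofBijective _ hψbij)
    rw [hVcard, Nat.card_congr Multiplicative.toAdd, Nat.card_pi, Fin.prod_univ_two,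
      Nat.card_eq_fintype_card] at this
    nlinarith
  have hcardH : Nat.card H = Nat.card L := by
    have h' := CfsgLib.CommutingSLTwo.card_SL2 (F := F')
    rw [hq, ← hcardSL] at h'
    rw [Nat.card_congr eH.toEquiv, Nat.card_congr eL.toEquiv]
    exact Nat.eq_of_mul_eq_mul_right (by have := Fintype.one_lt_card (α := F); omega) h'
  have hLeq : L = H := Subgroup.eq_of_le_of_card_ge hLH hcardH.le
  refine ⟨fun x hx g => ?_⟩
  rw [Subgroup.mem_subgroupOf, hLeq] at hx ⊢
  show (MulAut.conj (g : X)).toMonoidHom (x : X) ∈ H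
  have hmap : H.map (MulAut.conj (g : X)).toMonoidHom ≤ H := by
    rw [hH, pElementClosure, MonoidHom.map_closure]
    refine Subgroup.closure_mono ?_
    rintro _ ⟨y, ⟨⟨z, hz, rfl⟩, k, hk⟩, rfl⟩
    refine ⟨⟨g * z * g⁻¹, hKn.conj_mem z hz g, rfl⟩, k, ?_⟩
    show orderOf (MulAut.conj (g : X) (G.subtype z)) = p ^ k
    rw [MulEquiv.orderOf_eq]
    exact hk
  exact hmap ⟨_, hx, rfl⟩

end CfsgLib.MinParFF.SL2Emb
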