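import Cfsg.Agent.MinParFF.SL2Embedded.Fusion
import Cfsg.Agent.GL4F2.Alt8
import Cfsg.Agent.SmallPerm.DegreeSix
import Cfsg.Agent.PermGroups.DegreeSeven
import Cfsg.Agent.Classical.Linear.Simple
import Cfsg.Agent.S2551

/-!
The exceptional case: four field elements, and a Sylow subgroup with a field automorphism.
-/

set_option autoImplicit false
set_option linter.style.haveILetI false
set_option linter.unusedSectionVars false

namespace CfsgLib.MinParFF.SL2Emb

open scoped Pointwise

theorem mem_of_orderOf_five {G : Type*} [Group G] [Finite G] (h25 : ¬ 25 ∣ Nat.card G)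
    (K : Subgroup G) [K.Normal] (hK : 5 ∣ Nat.card K) {g : G} (hg : orderOf g = 5) : g ∈ K := by
  have hidx : ¬ 5 ∣ K.index := fun h5 =>
    h25 (by rw [← K.card_mul_index]; exact Nat.mul_dvd_mul hK h5)
  have h1 : g ^ K.index ∈ K := K.pow_index_mem g
  have h2 : Subgroup.zpowers (g ^ K.index) = Subgroup.zpowers g := by
    refine Subgroup.eq_of_le_of_card_ge (Subgroup.zpowers_le.2 (Subgroup.pow_mem _ (Subgroup.mem_zpowers g) _)) ?_
    rw [Nat.card_zpowers, Nat.card_zpowers,
      Nat.Coprime.orderOf_pow (by rw [hg]; exact (Nat.prime_five.coprime_iff_not_dvd).2 hidx)]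
  exact (Subgroup.zpowers_le.2 h1) (h2 ▸ Subgroup.mem_zpowers g)

namespace Nat2

variable {F : Type*} [Field F] [Finite F] {G : Type*} [Group G] [Finite G] {L : Subgroup G}
variable {h : Nat2 F L} [CharP F 2]

theorem orderOf_five (h : Nat2 F L) {s t : F} (hu : (s * t) ^ 2 + s * t + 1 = 0) :
    orderOf (h.ua s * h.ub t) = 5 := by
  haveI : Fact (Nat.Prime 5) := ⟨Nat.prime_five⟩
  have two : (2 : F) = 0 := CharTwo.two_eq_zero
  set g := h.ua s * h.ub t with hg
  have hg1 : ∀ v : F × F, h.act g v = (v.1 + s * (v.2 + t * v.1), v.2 + t * v.1) := fun v => by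
    rw [hg, h.act_mul, h.ub_apply, h.ua_apply]
  have rel : ∀ v, h.act g (h.act g v) =
      (s * t * (h.act g v).1 + v.1, s * t * (h.act g v).2 + v.2) := fun v => by
    rw [hg1 (h.act g v), hg1]
    ext
    · simp only; linear_combination (s * t * v.1 + s * v.2) * two
    · simp only; linear_combination (t * v.1) * two
  refine orderOf_eq_prime (h.ext fun v => ?_) fun h1 => ?_
  · simp only [pow_succ', pow_zero, mul_one, h.act_mul, h.act_one]
    rw [rel (h.act g (h.act g (h.act g v))), rel (h.act g (h.act g v)), rel (h.act g v), rel v]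
    set w := h.act g v
    ext
    · simp only
      linear_combination ((((s * t) ^ 2 - s * t + 1) * w.1 + (s * t - 1) * v.1)) * hu +
        ((s * t) ^ 2 * w.1 + s * t * v.1) * two
    · simp only
      linear_combination ((((s * t) ^ 2 - s * t + 1) * w.2 + (s * t - 1) * v.2)) * hu +
        ((s * t) ^ 2 * w.2 + s * t * v.2) * two
  · have := congrArg (fun z => h.act z ((1, 0) : F × F)) h1
    rw [h.act_one, hg1] at this
    have ht : t = 0 := by simpa using congrArg Prod.snd this
    rw [ht] at hu
    simp at hu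

theorem exists_root (hF : Nat.card F = 4) :
    ∃ u u' : F, u ^ 2 + u + 1 = 0 ∧ u' ^ 2 + u' + 1 = 0 ∧ u' - u = 1 := by
  haveI := Fintype.ofFinite F
  classical
  have two : (2 : F) = 0 := CharTwo.two_eq_zero
  obtain ⟨u, hu⟩ : ∃ u : F, u ∉ ({0, 1} : Finset F) := by
    classical
    by_contra hno
    push Not at hno
    have := Finset.card_le_card (s := (Finset.univ : Finset F)) (t := {0, 1}) fun x _ => hno x
    rw [Finset.card_univ, ← Nat.card_eq_fintype_card, hF] at this
    have := this.trans Finset.card_le_two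
    omega
  simp only [Finset.mem_insert, Finset.mem_singleton, not_or] at hu
  have h3 : u ^ 3 = 1 := by
    have := FiniteField.pow_card_sub_one_eq_one u hu.1
    rwa [← Nat.card_eq_fintype_card, hF] at this
  have h2 : u ^ 2 + u + 1 = 0 := by
    have : (u - 1) * (u ^ 2 + u + 1) = 0 := by linear_combination h3
    exact (mul_eq_zero.1 this).resolve_left (sub_ne_zero.2 hu.2)
  exact ⟨u, u + 1, h2, by linear_combination h2 + (u + 1) * two, by ring⟩

/-- A subgroup containing all elements of order five contains `L`. -/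
theorem le_of_fives (h : Nat2 F L) (hF : Nat.card F = 4) {D : Subgroup G}
    (hD : ∀ g ∈ L, orderOf g = 5 → g ∈ D) : L ≤ D := by
  obtain ⟨u, u', hu, hu', hd⟩ := exists_root hF
  have key : ∀ s t : F, (s * t) ^ 2 + s * t + 1 = 0 → h.ua s * h.ub t ∈ D := fun s t hst =>
    hD _ (L.mul_mem (h.ua_mem s) (h.ub_mem t)) (h.orderOf_five hst)
  refine h.le_of_roots (fun r => ?_) fun r => ?_
  · by_cases hr : r = 0
    · rw [hr, h.ua_zero]; exact D.one_mem
    have h1 := key (u * r) r⁻¹ (by rw [mul_inv_cancel_right₀ hr]; exact hu)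
    have h2 := key (u' * r) r⁻¹ (by rw [mul_inv_cancel_right₀ hr]; exact hu')
    have h3 := D.mul_mem h2 (D.inv_mem h1)
    rw [mul_inv_rev, mul_assoc, mul_inv_cancel_left, ← h.ua_neg, ← h.ua_add] at h3
    convert h3 using 2
    linear_combination -r * hd
  · by_cases hr : r = 0
    · have : h.ub r = 1 := h.ext fun v => by simp [h.ub_apply, hr]
      rw [this]; exact D.one_mem
    have h1 := key r⁻¹ (r * u) (by rw [inv_mul_cancel_left₀ hr]; exact hu)
    have h2 := key r⁻¹ (r * u') (by rw [inv_mul_cancel_left₀ hr]; exact hu')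
    have h3 := D.mul_mem (D.inv_mem h1) h2
    convert h3 using 1
    have e : h.ub (r * u) * h.ub r = h.ub (r * u') := h.ext fun v => by
      simp only [h.act_mul, h.ub_apply]
      ext
      · rfl
      · simp only; linear_combination -r * v.1 * hd
    rw [← e]
    group

theorem four_case {S : Subgroup G} (hS : h.Syl 2 S) (hF : Nat.card F = 4) (hnS : ¬ S ≤ h.A)
    (e : L ≃* Matrix.SpecialLinearGroup (Fin 2) F) (hL : Nat.card L = 60) :
    L.Normal ∨ Nonempty (G ≃* ↥(alternatingGroup (Fin 7))) := by
  classical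
  haveI := Fintype.ofFinite F
  haveI : Fact (Nat.Prime 2) := ⟨Nat.prime_two⟩
  -- the embedding in GL₄(2)
  letI : Algebra (ZMod 2) F := ZMod.algebra _ _
  have hrank : Module.finrank (ZMod 2) (F × F) = 4 := by
    have h1 : Nat.card (ZMod 2) ^ Module.finrank (ZMod 2) (F × F) = Nat.card (F × F) :=
      (Module.natCard_eq_pow_finrank (K := ZMod 2) (V := F × F)).symm
    rw [Nat.card_zmod, Nat.card_prod, hF] at h1
    exact Nat.pow_right_injective (le_refl 2) (h1.trans (by norm_num))
  let b := Module.finBasisOfFinrankEq (ZMod 2) (F × F) hrank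
  let μ : G →* Matrix (Fin 4) (Fin 4) (ZMod 2) :=
    { toFun := fun g => LinearMap.toMatrixAlgEquiv b
        ((AddMonoidHom.mk' (h.act g) (h.add g)).toZModLinearMap 2)
      map_one' := by
        rw [← map_one (LinearMap.toMatrixAlgEquiv b)]
        exact congrArg _ (LinearMap.ext fun v => h.act_one v)
      map_mul' := fun x y => by
        rw [← map_mul]
        exact congrArg _ (LinearMap.ext fun v => h.act_mul x y v) }
  let ι : G →* GL (Fin 4) (ZMod 2) := μ.toHomUnits
  have hι : Function.Injective ι := fun x y exy => h.ext fun v =>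
    LinearMap.congr_fun ((LinearMap.toMatrixAlgEquiv b).injective (congrArg Units.val exy :)) v
  have hG : Nat.card G ∣ 20160 := by
    rw [Nat.card_congr (MonoidHom.ofInjective hι).toEquiv, ← CfsgLib.GL4F2.card_GL_four]
    exact Subgroup.card_subgroup_dvd_card _
  have h25 : ¬ 25 ∣ Nat.card G := fun hd => absurd (hd.trans hG) (by norm_num)
  -- the Sylow subgroup has order eight
  have hS8 : Nat.card S = 8 := by
    haveI := finite_aut (F := F)
    have hall : ∀ σ : RingAut F, σ ^ 2 = 1 := by
      intro σ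
      rw [← orderOf_dvd_iff_pow_eq_one]
      have hq := fixCard_pow σ
      rw [hF] at hq
      have h2 := one_lt_fixCard σ
      have hle : 2 ^ orderOf σ ≤ 2 ^ 2 :=
        (Nat.pow_le_pow_left h2 _).trans hq.le
      have := (Nat.pow_le_pow_iff_right (le_refl 2)).1 hle
      have := orderOf_pos σ
      interval_cases orderOf σ <;> norm_num
    have hR : Nat.card (RingAut F) ≤ 2 := by
      refine le_trans ?_ (card_pow_eq_one_le (F := F) (p := 2))
      exact Nat.card_le_card_of_injective (fun σ => ⟨σ, hall σ⟩) fun a c e' => congrArg Subtype.val e'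
    have hker : Nat.card hS.θS.ker = 4 := by
      rw [← hF, ← h.card_A]
      refine Nat.card_congr ⟨fun a => ⟨a.1.1, hS.θS_eq_one.1 a.2⟩,
        fun a => ⟨⟨a.1, hS.A_le a.2⟩, hS.θS_eq_one.2 a.2⟩, fun a => rfl, fun a => rfl⟩
    have h1 : Nat.card S = 4 * Nat.card hS.θS.range := by
      rw [← hker, ← Subgroup.index_ker, Subgroup.card_mul_index]
    have h2 : Nat.card hS.θS.range ≤ 2 := (Nat.card_le_card_of_injective _ Subtype.val_injective).trans hR
    have h3 : Nat.card hS.θS.range ≠ 1 := fun h0 => hnS fun x hx => by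
      refine (hS.θS_eq_one (x := ⟨x, hx⟩)).1 ?_
      have hm : hS.θS ⟨x, hx⟩ ∈ hS.θS.range := ⟨_, rfl⟩
      rw [Subgroup.card_eq_one.1 h0] at hm
      exact Subgroup.mem_bot.1 hm
    have h4 : 0 < Nat.card hS.θS.range := Nat.card_pos
    omega
  have hodd : ¬ 2 ∣ S.index := (Nat.prime_two.coprime_iff_not_dvd).1 hS.coprime_index
  have hm : Nat.card G = 8 * S.index := by rw [← hS8, Subgroup.card_mul_index]
  set N := Subgroup.normalizer (L : Set G) with hN
  have hLN : L ≤ N := Subgroup.le_normalizer
  have hdN1 : 60 ∣ Nat.card N := hL ▸ Subgroup.card_dvd_of_le hLN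
  have hdN2 : 8 ∣ Nat.card N := hS8 ▸ Subgroup.card_dvd_of_le hS.norm
  have h120 : 120 ∣ Nat.card N := (show (120 : ℕ) = Nat.lcm 60 8 by norm_num) ▸ Nat.lcm_dvd hdN1 hdN2
  -- elements of order five of the normalizer lie in `L`
  have hfiveN : ∀ g ∈ N, orderOf g = 5 → g ∈ L := by
    intro g hg hg5
    haveI : (L.subgroupOf N).Normal := Subgroup.normal_in_normalizer
    have h25' : ¬ 25 ∣ Nat.card N := fun hd => h25 (hd.trans (Subgroup.card_subgroup_dvd_card N))
    have h5L : 5 ∣ Nat.card (L.subgroupOf N) := by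
      rw [Nat.card_congr (Subgroup.subgroupOfEquivOfLe hLN).toEquiv, hL]; norm_num
    exact Subgroup.mem_subgroupOf.1
      (mem_of_orderOf_five h25' (L.subgroupOf N) h5L (g := ⟨g, hg⟩) (by rw [← Subgroup.orderOf_coe]; exact hg5))
  have hnormal : (∀ g : G, orderOf g = 5 → g ∈ N) → L.Normal := by
    intro hall
    have hle : L = Subgroup.closure {g : G | orderOf g = 5} := by
      refine le_antisymm (h.le_of_fives hF fun g _ hg => Subgroup.subset_closure hg) ?_
      exact (Subgroup.closure_le _).2 fun g hg => hfiveN g (hall g hg) hg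
    rw [hle]
    refine ⟨fun x hx g => ?_⟩
    have hmap : (Subgroup.closure {g : G | orderOf g = 5}).map (MulAut.conj g).toMonoidHom ≤
        Subgroup.closure {g : G | orderOf g = 5} := by
      rw [MonoidHom.map_closure]
      refine Subgroup.closure_mono ?_
      rintro _ ⟨y, hy, rfl⟩
      show orderOf ((MulAut.conj g) y) = 5
      rw [MulEquiv.orderOf_eq]
      exact hy
    exact hmap ⟨x, hx, rfl⟩
  by_cases hidx : N.index < 5
  · refine Or.inl (hnormal fun g hg => ?_)
    obtain ⟨n, hn0, hn, hgn⟩ := Subgroup.exists_pow_mem_of_index_ne_zero N.index_ne_zero_of_finite g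
    have h2 : Subgroup.zpowers (g ^ n) = Subgroup.zpowers g := by
      refine Subgroup.eq_of_le_of_card_ge (Subgroup.zpowers_le.2 (Subgroup.pow_mem _ (Subgroup.mem_zpowers g) _)) ?_
      rw [Nat.card_zpowers, Nat.card_zpowers,
        Nat.Coprime.orderOf_pow (by
          rw [hg]; exact (Nat.prime_five.coprime_iff_not_dvd).2 (Nat.not_dvd_of_pos_of_lt hn0 (by omega)))]
    exact (Subgroup.zpowers_le.2 hgn) (h2 ▸ Subgroup.mem_zpowers g)
  -- the index is seven or the group has order 2520
  have hNidx := N.card_mul_index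
  obtain ⟨j, hj⟩ := h120
  have hi : Nat.card G = 120 * (j * N.index) := by rw [← hNidx, hj, mul_assoc]
  have h168 : j * N.index ∣ 168 := by
    rw [hi, show (20160 : ℕ) = 120 * 168 by norm_num] at hG
    exact (Nat.mul_dvd_mul_iff_left (by norm_num)).1 hG
  have h21 : j * N.index ∣ 21 := by
    refine Nat.Coprime.dvd_of_dvd_mul_left ?_ (show j * N.index ∣ 8 * 21 from h168)
    rw [Nat.coprime_comm]
    refine (Nat.Coprime.pow_left 3 ?_ : Nat.Coprime (2 ^ 3) (j * N.index))
    refine Nat.prime_two.coprime_iff_not_dvd.2 fun h2 => hodd ?_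
    have h3 : S.index = 15 * (j * N.index) := by omega
    rw [h3]
    exact Dvd.dvd.mul_left h2 15
  by_cases h2520 : j * N.index = 21
  · refine Or.inr ?_
    rw [h2520] at hi
    let f : G →* Equiv.Perm (Fin 8) :=
      (alternatingGroup (Fin 8)).subtype.comp (CfsgLib.GL4F2.equivAlt8.toMonoidHom.comp ι)
    have hf : Function.Injective f := fun x y exy =>
      hι (CfsgLib.GL4F2.equivAlt8.injective (Subtype.ext exy))
    have hcard : Nat.card f.range = 2520 := by
      rw [← Nat.card_congr (MonoidHom.ofInjective hf).toEquiv, hi]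
    obtain ⟨k, hk⟩ := Cfsg.Agent.S2551.exists_fixed f.range hcard
    obtain ⟨eA⟩ := CfsgLib.SmallPerm.alt_stabilizer_equiv (n := 7) (by norm_num) k
    set K := (MulAction.stabilizer (Equiv.Perm (Fin 8)) k).subgroupOf (alternatingGroup (Fin 8))
    let f' : G →* K :=
      (CfsgLib.GL4F2.equivAlt8.toMonoidHom.comp ι).codRestrict K fun g =>
        Subgroup.mem_subgroupOf.2 (MulAction.mem_stabilizer_iff.2 (hk _ ⟨g, rfl⟩))
    have hf' : Function.Injective f' := fun x y exy =>
      hf (congrArg (fun z : K => ((z : ↥(alternatingGroup (Fin 8))) : Equiv.Perm (Fin 8))) exy)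
    have hK : Nat.card K = 2520 := by
      rw [Nat.card_congr eA.toEquiv, nat_card_alternatingGroup]
      simp [Nat.factorial]
    exact ⟨(MulEquiv.ofBijective f' ((Nat.bijective_iff_injective_and_card f').2
      ⟨hf', by rw [hi, hK]⟩)).trans eA⟩
  refine Or.inl ?_
  have hi7 : N.index = 7 ∧ j = 1 := by
    have hd : N.index ∣ 21 := dvd_trans (dvd_mul_left _ _) h21
    have hmem := Nat.mem_divisors.2 ⟨hd, (by norm_num : (21 : ℕ) ≠ 0)⟩
    have hjmem := Nat.mem_divisors.2
      ⟨dvd_trans (dvd_mul_right _ _) h21, (by norm_num : (21 : ℕ) ≠ 0)⟩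
    rw [show Nat.divisors 21 = {1, 3, 7, 21} by decide +kernel] at hmem hjmem
    simp only [Finset.mem_insert, Finset.mem_singleton] at hmem hjmem
    have hjl := Nat.le_of_dvd (by norm_num) h21
    rcases hmem with hm' | hm' | hm' | hm' <;> rcases hjmem with hj' | hj' | hj' | hj' <;>
      rw [hm', hj'] at hjl h2520 <;> omega
  obtain ⟨hi7, rfl⟩ := hi7
  set C := N.normalCore with hC
  have hCN : C ≤ N := N.normalCore_le
  by_cases h5C : 5 ∣ Nat.card C
  · exact hnormal fun g hg => hCN (mem_of_orderOf_five h25 C h5C hg)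
  exfalso
  have hCL : C ⊓ L = ⊥ := by
    haveI : ((C ⊓ L).subgroupOf L).Normal := by
      rw [Subgroup.inf_subgroupOf_right]
      infer_instance
    haveI := Subgroup.Normal.map (show ((C ⊓ L).subgroupOf L).Normal from inferInstance) e.toMonoidHom e.surjective
    have h4 : 4 ≤ Nat.card F := hF.ge
    rcases CfsgLib.Classical.Linear.normal_le_center_or_eq_top
      (CfsgLib.Classical.Linear.commutator_sl_fin_eq_top 2 fun _ =>
        CfsgLib.Classical.Linear.exists_sq_ne_one_of_four_le h4)
      (((C ⊓ L).subgroupOf L).map e.toMonoidHom) with hc | ht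
    · rw [eq_bot_iff]
      intro z hz
      have hzc := hc ⟨⟨z, hz.2⟩, hz, rfl⟩
      have hcomm : ∀ l ∈ L, z * l = l * z := fun l hl => by
        have := (Subgroup.mem_center_iff.1 hzc (e ⟨l, hl⟩)).symm
        rw [MulEquiv.toMonoidHom_eq_coe, MonoidHom.coe_coe, ← map_mul, ← map_mul] at this
        exact congrArg Subtype.val (e.injective this)
      obtain ⟨a, b', c, d, hdet, hlin⟩ := h.lin z hz.2
      have e1 := congrArg (fun w => h.act w ((0, 1) : F × F)) (hcomm _ (h.ua_mem 1))
      have e2 := congrArg (fun w => h.act w ((1, 0) : F × F)) (hcomm _ (h.ub_mem 1))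
      simp only [h.act_mul, h.ua_apply, h.ub_apply, hlin, Prod.mk.injEq] at e1 e2
      obtain ⟨e11, e12⟩ := e1
      obtain ⟨e21, e22⟩ := e2
      have hc0 : c = 0 := by linear_combination e12
      have hb0 : b' = 0 := by linear_combination e21
      have had : a = d := by linear_combination e11
      have ha : a = 1 := by
        subst hc0 hb0 had
        refine h.eq_one_of_pow (p := 2) (n := 1) ?_
        linear_combination hdet
      rw [Subgroup.mem_bot]
      refine h.ext fun v => ?_
      rw [hlin, h.act_one, hc0, hb0, ← had, ha]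
      simp
    · exfalso
      apply h5C
      have hle : L ≤ C := fun l hl => by
        obtain ⟨y, hy, hye⟩ := ht.ge (Subgroup.mem_top (e ⟨l, hl⟩))
        rw [e.injective hye] at hy
        exact hy.1
      refine dvd_trans ?_ (Subgroup.card_dvd_of_le hle)
      rw [hL]
      norm_num
  have hC2 : Nat.card C ≤ 2 := by
    have h1 := card_sup_mul_inf (A := C) (B := L)
      (by rw [Subgroup.normalizer_eq_top_iff.2 inferInstance]; exact le_top)
    rw [hCL, Subgroup.card_bot, mul_one, hL] at h1
    have h2 := Subgroup.card_le_of_le (sup_le hCN hLN)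
    omega
  have hC1 : ∀ z ∈ C, z = 1 := by
    intro z hz
    have hz2 : z ^ 2 ^ 1 = 1 := by
      have h1 := Nat.le_of_dvd Nat.card_pos (Subgroup.orderOf_dvd_natCard C hz)
      have h2 := orderOf_pos z
      rw [← orderOf_dvd_iff_pow_eq_one, pow_one]
      have h3 : orderOf z ≤ 2 := h1.trans hC2
      interval_cases hoz : orderOf z <;> norm_num
    refine h.eq_one_of_central hz2 fun l hl => ?_
    have h1 : z * l * z⁻¹ * l⁻¹ ∈ C ⊓ L := by
      refine ⟨?_, L.mul_mem ((Subgroup.mem_normalizer_iff.1 (hCN hz) l).1 hl) (L.inv_mem hl)⟩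
      have := N.normalCore_normal.conj_mem _ (C.inv_mem hz) l
      simpa [mul_assoc] using C.mul_mem hz this
    rw [hCL, Subgroup.mem_bot, mul_inv_eq_one, mul_inv_eq_iff_eq_mul] at h1
    exact h1
  let φ : G →* Equiv.Perm (G ⧸ N) := MulAction.toPermHom G (G ⧸ N)
  have hφ : Function.Injective φ := by
    rw [← MonoidHom.ker_eq_bot_iff, ← Subgroup.normalCore_eq_ker, eq_bot_iff]
    exact fun z hz => Subgroup.mem_bot.2 (hC1 z hz)
  haveI := Fintype.ofFinite (G ⧸ N)
  have h7 : Fintype.card (G ⧸ N) = 7 := by rw [← Nat.card_eq_fintype_card, ← Subgroup.index_eq_card, hi7]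
  have hKcard : Nat.card φ.range = 840 := by
    rw [← Nat.card_congr (MonoidHom.ofInjective hφ).toEquiv, hi, hi7]
  have hAlt : alternatingGroup (G ⧸ N) ≤ φ.range := by
    by_contra hno
    have h1 := CfsgLib.PermGroups.seven_le_index_of_not_alternating h7 φ.range hno
    have h2 := φ.range.card_mul_index
    rw [hKcard, Nat.card_perm, Nat.card_eq_fintype_card, h7] at h2
    simp only [Nat.factorial] at h2
    omega
  have h1 := Subgroup.card_le_of_le hAlt
  haveI : Nontrivial (G ⧸ N) := Fintype.one_lt_card_iff_nontrivial.1 (by omega)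
  rw [hKcard, nat_card_alternatingGroup, Nat.card_eq_fintype_card, h7] at h1
  simp [Nat.factorial] at h1

end Nat2

end CfsgLib.MinParFF.SL2Emb
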