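import Cfsg.Agent.MinParFF.Ctx
import Cfsg.Agent.MinParFF.SL2Embedded.Coord

/-!
Fusion in a Sylow subgroup containing a root group and normalizing `SL₂(F)`: the root group is
strongly closed, and the field automorphism is invariant under fusion.
-/

set_option autoImplicit false
set_option linter.style.haveILetI false
set_option linter.unusedSectionVars false

namespace CfsgLib.MinParFF.SL2Emb

variable {F : Type*} [Field F] [Finite F]

theorem isCyclic_ringAut : IsCyclic (RingAut F) := by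
  obtain ⟨p, hchar⟩ := CharP.exists F
  haveI : Fact p.Prime := ⟨CharP.char_is_prime F p⟩
  letI : Algebra (ZMod p) F := ZMod.algebra _ _
  let e : Gal(F/ZMod p) ≃* RingAut F :=
    { toFun := fun a => a.toRingEquiv
      invFun := fun a => AlgEquiv.ofRingEquiv (f := a) fun x => by
        exact RingHom.congr_fun (Subsingleton.elim ((a : F →+* F).comp (algebraMap (ZMod p) F))
          (algebraMap (ZMod p) F)) x
      left_inv := fun a => AlgEquiv.ext fun x => rfl
      right_inv := fun a => RingEquiv.ext fun x => rfl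
      map_mul' := fun a b => RingEquiv.ext fun x => rfl }
  exact e.isCyclic.mp inferInstance

theorem ringAut_comm (σ τ : RingAut F) : σ * τ = τ * σ := by
  haveI := isCyclic_ringAut (F := F)
  letI := IsCyclic.commGroup (α := RingAut F)
  exact mul_comm σ τ

theorem finite_aut : Finite (RingAut F) :=
  Finite.of_injective (fun σ : RingAut F => (σ : F → F)) DFunLike.coe_injective

/-- The order of the fixed field. -/
noncomputable def fixCard (σ : RingAut F) : ℕ := Nat.card {x : F // σ x = x}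

theorem fixCard_pow (σ : RingAut F) : fixCard σ ^ orderOf σ = Nat.card F := by
  haveI := finite_aut (F := F)
  haveI := Fintype.ofFinite (Subgroup.zpowers σ)
  set K := FixedPoints.subfield (Subgroup.zpowers σ) F with hK
  have hr : Nat.card K = fixCard σ := by
    refine Nat.card_congr (Equiv.subtypeEquivRight fun x => ?_)
    constructor
    · intro hx
      exact hx ⟨σ, Subgroup.mem_zpowers σ⟩
    · rintro hx ⟨τ, hτ⟩
      have hle : Subgroup.zpowers σ ≤ MulAction.stabilizer (RingAut F) x :=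
        Subgroup.zpowers_le.2 hx
      exact hle hτ
  haveI := Fintype.ofFinite K
  haveI := Fintype.ofFinite F
  have h1 : Module.finrank K F = Fintype.card (Subgroup.zpowers σ) := FixedPoints.finrank_eq_card _ _
  have h2 : Fintype.card F = Fintype.card K ^ Module.finrank K F := Module.card_eq_pow_finrank
  rw [Nat.card_eq_fintype_card, h2, h1, ← hr, Nat.card_eq_fintype_card,
    ← Nat.card_eq_fintype_card (α := Subgroup.zpowers σ), Nat.card_zpowers]

theorem one_lt_fixCard (σ : RingAut F) : 1 < fixCard σ := by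
  haveI : Nontrivial {x : F // σ x = x} :=
    ⟨⟨⟨0, map_zero σ⟩, ⟨1, map_one σ⟩, fun e => zero_ne_one (congrArg Subtype.val e)⟩⟩
  exact Finite.one_lt_card

theorem prime_le_fixCard {p : ℕ} [hp : Fact p.Prime] [CharP F p] (σ : RingAut F) :
    p ≤ fixCard σ := by
  haveI := Fintype.ofFinite F
  obtain ⟨n, -, hn⟩ := FiniteField.card F p
  have hd : fixCard σ ∣ p ^ (n : ℕ) := by
    haveI := finite_aut (F := F)
    rw [← hn, ← Nat.card_eq_fintype_card, ← fixCard_pow σ]
    exact dvd_pow_self _ (orderOf_pos σ).ne'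
  obtain ⟨j, -, hj⟩ := (Nat.dvd_prime_pow hp.1).1 hd
  have := one_lt_fixCard σ
  rw [hj] at this ⊢
  refine Nat.le_self_pow (fun h0 => ?_) p
  rw [h0, pow_zero] at this
  exact lt_irrefl 1 this

theorem card_twisted_fix_le (σ : RingAut F) (a : F) :
    Nat.card {y : F // a * σ y = y} ≤ fixCard σ := by
  by_cases h0 : ∀ y, a * σ y = y → y = 0
  · refine le_trans ?_ (one_lt_fixCard σ).le
    haveI : Subsingleton {y : F // a * σ y = y} :=
      ⟨fun x y => Subtype.ext ((h0 _ x.2).trans (h0 _ y.2).symm)⟩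
    exact Finite.card_le_one_iff_subsingleton.2 inferInstance
  · push Not at h0
    obtain ⟨y₀, hy₀, hne⟩ := h0
    refine Nat.card_le_card_of_injective (fun y => ⟨y.1 / y₀, ?_⟩) fun y z e => ?_
    · have ha : a ≠ 0 := fun ha => hne (by rw [← hy₀, ha, zero_mul])
      rw [map_div₀]
      conv_rhs => rw [← y.2, ← hy₀]
      rw [mul_div_mul_left _ _ ha]
    · refine Subtype.ext ?_
      have := congrArg Subtype.val e
      simp only at this
      rwa [div_left_inj' hne] at this

theorem card_pow_eq_one_le {p : ℕ} [hp : Fact p.Prime] :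
    Nat.card {σ : RingAut F // σ ^ p = 1} ≤ p := by
  haveI := finite_aut (F := F)
  haveI := isCyclic_ringAut (F := F)
  classical
  haveI := Fintype.ofFinite (RingAut F)
  rw [Nat.card_eq_fintype_card, Fintype.card_subtype]
  exact IsCyclic.card_pow_eq_one_le hp.1.pos

variable {G : Type*} [Group G] [Finite G] {p : ℕ} [hp : Fact p.Prime] [CharP F p] {L : Subgroup G}

namespace Nat2

variable (h : Nat2 F L)
include h

/-- A Sylow subgroup containing the root group and normalizing `L`. -/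
structure Syl (p : ℕ) (S : Subgroup G) : Prop where
  isP : IsPGroup p S
  A_le : h.A ≤ S
  norm : S ≤ Subgroup.normalizer (L : Set G)
  sylP : ∀ P : Subgroup G, IsPGroup p P → ∃ u, conjSub u P ≤ S

variable {h} {S : Subgroup G}

theorem Syl.exists_pow (hS : h.Syl p S) {x : G} (hx : x ∈ S) : ∃ n : ℕ, x ^ p ^ n = 1 := by
  obtain ⟨n, hn⟩ := hS.isP ⟨x, hx⟩
  exact ⟨n, congrArg Subtype.val hn⟩

theorem Syl.le_NA (hS : h.Syl p S) : S ≤ Subgroup.normalizer (h.A : Set G) := by
  have hSL : S ⊓ L = h.A := by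
    refine (eq_of_normalizer_le (hS.isP.to_le inf_le_left) (le_inf hS.A_le h.A_le) ?_).symm
    intro x hx
    obtain ⟨n, hn⟩ := hS.exists_pow hx.1.1
    exact h.mem_A_of_θ hx.2 (hS.norm hx.1.1) hn (h.θ_eq_one_of_mem hx.2 hx.1.2)
  refine le_normalizer_of_conj fun s hs a ha => ?_
  rw [← hSL]
  exact ⟨S.mul_mem (S.mul_mem hs (hS.A_le ha)) (S.inv_mem hs),
    (Subgroup.mem_normalizer_iff.1 (hS.norm hs) a).1 (h.A_le ha)⟩

/-- The field automorphism on the Sylow subgroup. -/
noncomputable def Syl.θS (hS : h.Syl p S) : S →* RingAut F :=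
  h.θ.comp (Subgroup.inclusion hS.le_NA)

theorem Syl.θS_eq_one (hS : h.Syl p S) {x : S} : hS.θS x = 1 ↔ (x : G) ∈ h.A := by
  constructor
  · intro e
    obtain ⟨n, hn⟩ := hS.exists_pow x.2
    exact h.mem_A_of_θ (hS.le_NA x.2) (hS.norm x.2) hn e
  · exact fun e => h.θ_eq_one_of_mem (hS.le_NA x.2) (h.A_le e)

theorem Syl.form (hS : h.Syl p S) (x : S) :
    ∃ c k r : F, c ≠ 0 ∧ k ≠ 0 ∧ (∀ t, (x : G) * h.ua t * (x : G)⁻¹ = h.ua (c * hS.θS x t)) ∧
      ∀ v, h.act x v = (c * k * hS.θS x v.1 + r * (k * hS.θS x v.2), k * hS.θS x v.2) :=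
  h.form (hS.le_NA x.2) (hS.norm x.2)

/-- The fixed vectors of an element of the Sylow subgroup. -/
theorem Syl.card_fix_le (hS : h.Syl p S) (x : S) :
    Nat.card {v : F × F // h.act x v = v} ≤ fixCard (hS.θS x) ^ 2 := by
  obtain ⟨c, k, r, -, -, -, hf⟩ := hS.form x
  let K : AddSubgroup (F × F) :=
    { carrier := {v | h.act x v = v}
      zero_mem' := h.act_zero _
      add_mem' := fun {a b} (ha : h.act _ a = a) (hb : h.act _ b = b) => by
        show h.act _ (a + b) = a + b
        rw [h.add, ha, hb]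
      neg_mem' := fun {a} (ha : h.act _ a = a) => by
        show h.act _ (-a) = -a
        rw [h.act_neg, ha] }
  let f : K →+ F := (AddMonoidHom.snd F F).comp K.subtype
  have h1 : Nat.card f.ker * Nat.card f.range = Nat.card K := by
    rw [← AddSubgroup.index_ker, AddSubgroup.card_mul_index]
  have hK : Nat.card {v : F × F // h.act x v = v} = Nat.card K := rfl
  rw [hK, ← h1, pow_two]
  refine Nat.mul_le_mul ?_ ?_
  · refine le_trans ?_ (card_twisted_fix_le (hS.θS x) (c * k))
    refine Nat.card_le_card_of_injective (fun v => ⟨(v : F × F).1, ?_⟩) fun v w e => ?_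
    · have hv : h.act x (v : F × F) = v := v.1.2
      have h0 : (v : F × F).2 = 0 := v.2
      rw [hf, h0] at hv
      simpa using congrArg Prod.fst hv
    · refine Subtype.ext (Subtype.ext (Prod.ext (congrArg Subtype.val e) ?_))
      exact (show (v : F × F).2 = 0 from v.2).trans (show (w : F × F).2 = 0 from w.2).symm
  · refine le_trans ?_ (card_twisted_fix_le (hS.θS x) k)
    refine Nat.card_le_card_of_injective (fun y => ⟨(y : F), ?_⟩) fun y z e => ?_
    · obtain ⟨v, hv⟩ := y.2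
      have hv' : h.act x (v : F × F) = v := v.2
      rw [hf] at hv'
      rw [← hv]
      exact congrArg Prod.snd hv'
    · exact Subtype.ext (congrArg Subtype.val e :)

theorem card_fix_conj_ua (g : G) (t : F) :
    Nat.card F ≤ Nat.card {v : F × F // h.act (g * h.ua t * g⁻¹) v = v} := by
  refine Nat.card_le_card_of_injective (fun x => ⟨h.act g (x, 0), ?_⟩) fun x y e => ?_
  · rw [h.conj_apply, h.ua_apply]
    simp
  · exact congrArg Prod.fst ((h.act g).injective (congrArg Subtype.val e))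

theorem Syl.card_centralizer_le (hS : h.Syl p S) (x : S) :
    Nat.card ↥(h.A ⊓ Subgroup.centralizer {(x : G)}) ≤ fixCard (hS.θS x) := by
  obtain ⟨c, -, -, -, -, he, -⟩ := hS.form x
  refine le_trans ?_ (card_twisted_fix_le (hS.θS x) c)
  have hmem : ∀ a : ↥(h.A ⊓ Subgroup.centralizer {(x : G)}), ∃ t : {t : F // c * hS.θS x t = t},
      h.ua t.1 = a := by
    rintro ⟨a, ⟨t, rfl⟩, ha⟩
    refine ⟨⟨t, h.ua_inj ?_⟩, rfl⟩
    rw [← he, ← Subgroup.mem_centralizer_singleton_iff.1 ha, mul_inv_cancel_right]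
  choose f hf using hmem
  exact Nat.card_le_card_of_injective f fun a b e => Subtype.ext (by rw [← hf a, ← hf b, e])

theorem Syl.exists_centralized (hS : h.Syl p S) (x : S) :
    ∃ a ∈ h.A, a ≠ 1 ∧ a * (x : G) = x * a := by
  obtain ⟨n, hn⟩ := hS.exists_pow x.2
  obtain ⟨c, -, -, -, -, he, -⟩ := hS.form x
  let T : AddMonoid.End F := (AddMonoidHom.mulLeft c).comp (hS.θS x).toAddEquiv.toAddMonoidHom
  have hT : ∀ t, T t = c * hS.θS x t := fun t => rfl
  have hTm : ∀ (m : ℕ) t, ((x : G) ^ m) * h.ua t * ((x : G) ^ m)⁻¹ = h.ua ((T ^ m) t) := by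
    intro m
    induction m with
    | zero => intro t; simp
    | succ m ih =>
      intro t
      rw [pow_succ', pow_succ', AddMonoid.End.coe_mul, Function.comp_apply, hT, ← he, ← ih]
      group
  have hTn : T ^ p ^ n = 1 := by
    refine DFunLike.ext _ _ fun t => h.ua_inj ?_
    rw [← hTm, hn, AddMonoid.End.coe_one, id, one_mul, inv_one, mul_one]
  haveI : CharP (AddMonoid.End F) p :=
    charP_of_injective_ringHom (f := Module.toAddMonoidEnd F F)
      (fun a b e => by simpa using (show a • (1 : F) = b • (1 : F) from DFunLike.congr_fun e 1)) p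
  have h0 : (T - 1) ^ p ^ n = 0 := by
    rw [sub_pow_char_pow_of_commute (p := p) _ (Commute.one_right T), hTn, one_pow, sub_self]
  by_contra hno
  push Not at hno
  have hinj : Function.Injective (T - 1 : AddMonoid.End F) := by
    refine (injective_iff_map_eq_zero _).2 fun t ht => ?_
    by_contra htne
    have ht' : c * hS.θS x t = t := by
      rw [← hT]
      exact sub_eq_zero.1 ht
    refine hno _ (h.ua_mem_A t) (fun e => htne (h.ua_inj (e.trans h.ua_zero.symm))) ?_
    have := he t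
    rw [ht'] at this
    exact (mul_inv_eq_iff_eq_mul.1 this).symm
  have hit : ∀ m, Function.Injective ((T - 1) ^ m : AddMonoid.End F) := by
    intro m
    induction m with
    | zero => exact fun a b e => e
    | succ m ih =>
      rw [pow_succ']
      exact hinj.comp ih
  refine one_ne_zero (α := F) (hit (p ^ n) ?_)
  rw [h0]
  rfl

/-- `q ≠ 4`, or the root group is a whole Sylow subgroup. -/
def Good (h : Nat2 F L) (S : Subgroup G) : Prop := Nat.card F ≠ 4 ∨ S ≤ h.A

theorem Syl.elem_le (hS : h.Syl p S) (hgood : h.Good S) {E : Subgroup G} (hES : E ≤ S)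
    (hcomm : ∀ a ∈ E, ∀ b ∈ E, a * b = b * a) (hpow : ∀ a ∈ E, a ^ p = 1)
    (hcard : Nat.card F ≤ Nat.card E) : E = h.A := by
  suffices hle : E ≤ h.A from Subgroup.eq_of_le_of_card_ge hle (by rw [h.card_A]; exact hcard)
  intro e he
  by_contra heA
  have hq4 : Nat.card F ≠ 4 := hgood.resolve_right fun hle => heA (hle (hES he))
  set σ := hS.θS ⟨e, hES he⟩ with hσ
  have hσp : σ ^ p = 1 := by
    rw [hσ, ← map_pow, ← map_one hS.θS]
    exact congrArg _ (Subtype.ext (hpow e he))
  have hσ1 : σ ≠ 1 := fun h1 => heA (hS.θS_eq_one.1 h1)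
  have hd : orderOf σ = p := orderOf_eq_prime hσp hσ1
  have hq := fixCard_pow σ
  rw [hd] at hq
  let f : E →* RingAut F := hS.θS.comp (Subgroup.inclusion hES)
  have h1 : Nat.card f.ker * Nat.card f.range = Nat.card E := by
    rw [← Subgroup.index_ker, Subgroup.card_mul_index]
  have h2 : Nat.card f.range ≤ p := by
    haveI := finite_aut (F := F)
    refine le_trans ?_ (card_pow_eq_one_le (F := F) (p := p))
    refine Nat.card_le_card_of_injective (fun s => ⟨(s : RingAut F), ?_⟩) fun s t e' => ?_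
    · obtain ⟨a, ha⟩ := s.2
      rw [← ha, ← map_pow, ← map_one f]
      exact congrArg _ (Subtype.ext (hpow a a.2))
    · exact Subtype.ext (congrArg Subtype.val e' :)
  have h3 : Nat.card f.ker ≤ fixCard σ := by
    refine le_trans ?_ (hS.card_centralizer_le ⟨e, hES he⟩)
    refine Nat.card_le_card_of_injective (fun a => ⟨(a : G), hS.θS_eq_one.1 a.2,
      Subgroup.mem_centralizer_singleton_iff.2 (hcomm _ a.1.2 e he)⟩) fun a b e' => ?_
    exact Subtype.ext (Subtype.ext (congrArg Subtype.val e' :))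
  have h4 : fixCard σ ^ p ≤ fixCard σ * p := by
    rw [hq]
    exact hcard.trans (h1.ge.trans (Nat.mul_le_mul h3 h2))
  have hr := prime_le_fixCard (p := p) σ
  have hp2 := hp.1.two_le
  obtain ⟨j, hj⟩ : ∃ j, p = j + 2 := ⟨p - 2, by omega⟩
  have h5 : fixCard σ ^ (j + 1) ≤ p := by
    rw [hj, pow_succ', ← hj] at h4
    exact Nat.le_of_mul_le_mul_left h4 (one_lt_fixCard σ).le
  have hjz : j = 0 := by
    by_contra hj0
    have h6 : fixCard σ ^ 2 ≤ fixCard σ ^ (j + 1) :=
      Nat.pow_le_pow_right (one_lt_fixCard σ).le (by omega)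
    have := (h6.trans h5)
    nlinarith
  subst hjz
  rw [zero_add, pow_one] at h5
  apply hq4
  rw [← hq, hj, le_antisymm h5 hr, hj]
  rfl

/-- Elements fixing the fixed line pointwise and acting trivially modulo it. -/
def Q (h : Nat2 F L) : Subgroup G where
  carrier := {g | (∀ x, h.act g (x, 0) = (x, 0)) ∧ ∀ v, (h.act g v).2 = v.2}
  one_mem' := ⟨fun x => h.act_one _, fun v => by rw [h.act_one]⟩
  mul_mem' := fun {a b} ha hb => ⟨fun x => by rw [h.act_mul, hb.1, ha.1],
    fun v => by rw [h.act_mul, ha.2, hb.2]⟩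
  inv_mem' := fun {a} ha => ⟨fun x => by conv_lhs => rw [← ha.1 x, h.inv_act],
    fun v => by conv_rhs => rw [← h.act_inv a v, ha.2]⟩

theorem Q_apply {g : G} (hg : g ∈ Q h) (v : F × F) :
    h.act g v = v + ((h.act g (0, v.2)).1, 0) := by
  have h1 : v = (v.1, 0) + (0, v.2) := by simp
  conv_lhs => rw [h1, h.add, hg.1]
  ext
  · simp
  · simpa using hg.2 (0, v.2)

theorem Q_pow {g : G} (hg : g ∈ Q h) (m : ℕ) (v : F × F) :
    h.act (g ^ m) v = v + m • (((h.act g (0, v.2)).1, 0) : F × F) := by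
  induction m with
  | zero => simp
  | succ m ih =>
    rw [pow_succ', h.act_mul, ih, Q_apply hg, succ_nsmul, ← add_assoc]
    simp

theorem Q_exp {g : G} (hg : g ∈ Q h) : g ^ p = 1 := h.ext fun v => by
  rw [Q_pow hg, h.act_one]
  simp [Prod.ext_iff, CharP.cast_eq_zero]

theorem Q_comm {a b : G} (ha : a ∈ Q h) (hb : b ∈ Q h) : a * b = b * a := h.ext fun v => by
  rw [h.act_mul, h.act_mul, Q_apply ha, Q_apply hb, Q_apply hb (h.act a v), Q_apply ha v]
  ext <;> simp
  ring

/-- The root group is a TI subgroup. -/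
theorem Syl.ti (hS : h.Syl p S) (hgood : h.Good S) {g a : G} (ha : a ∈ h.A) (ha1 : a ≠ 1)
    (hga : g * a * g⁻¹ ∈ h.A) : g ∈ Subgroup.normalizer (h.A : Set G) := by
  obtain ⟨s, rfl⟩ := ha
  obtain ⟨t, ht⟩ := hga
  have ht0 : t ≠ 0 := fun h0 => ha1 (by
    rw [h0, h.ua_zero] at ht
    exact conj_eq_one_iff.1 ht.symm)
  have hW : ∀ x, (h.act g (x, 0)).2 = 0 := by
    intro x
    have h1 := h.conj_apply g (h.ua s) (x, 0)
    rw [← ht, h.ua_apply, h.ua_apply] at h1
    simp only [mul_zero, add_zero] at h1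
    simpa [ht0] using congrArg Prod.fst h1
  have hWsurj : ∀ x', ∃ x, h.act g (x, 0) = (x', 0) := by
    have hinj : Function.Injective fun x => (h.act g (x, 0)).1 := fun x y e => by
      have : h.act g (x, 0) = h.act g (y, 0) := Prod.ext e ((hW x).trans (hW y).symm)
      exact congrArg Prod.fst ((h.act g).injective this)
    intro x'
    obtain ⟨x, hx⟩ := Finite.injective_iff_surjective.1 hinj x'
    exact ⟨x, Prod.ext hx (hW x)⟩
  have hAQ : h.A ≤ Q h := by
    rintro _ ⟨u, rfl⟩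
    exact ⟨fun x => by simp [h.ua_apply], fun v => by simp [h.ua_apply]⟩
  have hgQ : conjSub g h.A ≤ Q h := by
    rintro _ ⟨_, ⟨u, rfl⟩, rfl⟩
    refine ⟨fun x' => ?_, fun v => ?_⟩
    · obtain ⟨x, hx⟩ := hWsurj x'
      rw [← hx]
      show h.act (g * h.ua u * g⁻¹) _ = _
      rw [h.conj_apply, h.ua_apply]
      simp
    · show (h.act (g * h.ua u * g⁻¹) v).2 = _
      rw [← h.act_inv g v, h.conj_apply, h.ua_apply]
      set w := h.act g⁻¹ v
      have h2 : ((w.1 + u * w.2, w.2) : F × F) = w + (u * w.2, 0) := by ext <;> simp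
      rw [h2, h.add, Prod.snd_add, hW, add_zero]
  have hQp : IsPGroup p (Q h) := fun x => ⟨1, Subtype.ext (by simpa using Q_exp x.2)⟩
  obtain ⟨w, hw⟩ := hS.sylP _ hQp
  have he : conjSub w (Q h) = h.A := by
    refine hS.elem_le hgood hw ?_ ?_ ?_
    · rintro _ ⟨a, ha, rfl⟩ _ ⟨b, hb, rfl⟩
      rw [← map_mul, Q_comm ha hb, map_mul]
    · rintro _ ⟨a, ha, rfl⟩
      rw [← map_pow, Q_exp ha, map_one]
    · rw [card_conjSub, ← h.card_A]
      exact Subgroup.card_le_of_le hAQ
  have hQA : Q h = h.A := (Subgroup.eq_of_le_of_card_ge hAQ (by rw [← he, card_conjSub])).symm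
  rw [mem_normalizer_iff_conjSub]
  exact Subgroup.eq_of_le_of_card_ge (hgQ.trans hQA.le) (card_conjSub g h.A).ge

/-- The root group is strongly closed in the Sylow subgroup. -/
theorem Syl.strong (hS : h.Syl p S) (hgood : h.Good S) {g a : G} (ha : a ∈ h.A)
    (hga : g * a * g⁻¹ ∈ S) : g * a * g⁻¹ ∈ h.A := by
  by_contra hxA
  set x := g * a * g⁻¹ with hx
  have ha1 : a ≠ 1 := fun h0 => hxA (by simp [hx, h0])
  have hq4 : Nat.card F ≠ 4 := hgood.resolve_right fun hle => hxA (hle hga)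
  obtain ⟨t, ht⟩ := ha
  set σ := hS.θS ⟨x, hga⟩ with hσ
  have hQA : h.ua t ∈ Q h := ⟨fun x => by simp [h.ua_apply], fun v => by simp [h.ua_apply]⟩
  have hxp : x ^ p = 1 := by
    rw [hx, conj_pow, ← ht, Q_exp hQA, mul_one, mul_inv_cancel]
  have hσp : σ ^ p = 1 := by
    rw [hσ, ← map_pow, ← map_one hS.θS]
    exact congrArg _ (Subtype.ext hxp)
  have hd : orderOf σ = p := orderOf_eq_prime hσp fun h1 => hxA (hS.θS_eq_one.1 h1)
  have hq := fixCard_pow σ
  rw [hd] at hq
  have hp2 : p = 2 := by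
    have h1 : fixCard σ ^ p ≤ fixCard σ ^ 2 := by
      rw [hq]
      refine (card_fix_conj_ua (h := h) g t).trans ?_
      rw [ht]
      exact hS.card_fix_le ⟨x, hga⟩
    have := (Nat.pow_le_pow_iff_right (one_lt_fixCard σ)).1 h1
    have := hp.1.two_le
    omega
  subst hp2
  obtain ⟨c, -, -, -, -, he, -⟩ := hS.form ⟨x, hga⟩
  rw [← hσ] at he
  simp only at he
  set C := h.A ⊓ Subgroup.centralizer {x} with hC
  have hTT : ∀ u, c * σ (c * σ u) = u := by
    intro u
    refine h.ua_inj ?_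
    rw [← he, ← he]
    rw [pow_two] at hxp
    calc x * (x * h.ua u * x⁻¹) * x⁻¹ = (x * x) * h.ua u * (x * x)⁻¹ := by group
      _ = h.ua u := by rw [hxp]; group
  let f : F →+ F :=
    AddMonoidHom.mk' (fun u => u + c * σ u) fun u v => by simp only [map_add]; ring
  have hfix : ∀ u, c * σ u = u → h.ua u ∈ C := fun u hu => by
    refine ⟨h.ua_mem_A u, Subgroup.mem_centralizer_singleton_iff.2 ?_⟩
    have := he u
    rw [hu] at this
    exact (mul_inv_eq_iff_eq_mul.1 this).symm
  have hker : Nat.card f.ker ≤ Nat.card C := by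
    refine Nat.card_le_card_of_injective (fun u => ⟨h.ua u.1, hfix u.1 ?_⟩) fun u v e => ?_
    · have : u.1 + c * σ u.1 = 0 := u.2
      rw [← CharTwo.add_eq_zero.1 this]
    · exact Subtype.ext (h.ua_inj (congrArg Subtype.val e :))
  have hrange : Nat.card f.range ≤ Nat.card C := by
    refine Nat.card_le_card_of_injective (fun u => ⟨h.ua u.1, hfix u.1 ?_⟩) fun u v e => ?_
    · obtain ⟨v, hv⟩ := u.2
      rw [← hv]
      show c * σ (v + c * σ v) = v + c * σ v
      rw [map_add, mul_add, hTT, add_comm]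
    · exact Subtype.ext (h.ua_inj (congrArg Subtype.val e :))
  have hqC : Nat.card F ≤ Nat.card C * Nat.card C := by
    refine le_trans (le_of_eq ?_) (Nat.mul_le_mul hker hrange)
    rw [← AddSubgroup.index_ker, AddSubgroup.card_mul_index]
  set A' := conjSub g h.A with hA'
  have hxA' : x ∈ A' := conj_mem_conjSub ⟨t, ht⟩
  have hgN : g ∉ Subgroup.normalizer (h.A : Set G) := fun hg =>
    hxA ((Subgroup.mem_normalizer_iff.1 hg a).1 ⟨t, ht⟩)
  have hCN : C ≤ Subgroup.normalizer (A' : Set G) := by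
    intro e he'
    have hc : e * x = x * e := Subgroup.mem_centralizer_singleton_iff.1 he'.2
    have h1 : g⁻¹ * e * g ∈ Subgroup.normalizer (h.A : Set G) := by
      refine hS.ti hgood ⟨t, ht⟩ ha1 ?_
      rw [show g⁻¹ * e * g * a * (g⁻¹ * e * g)⁻¹ = g⁻¹ * (e * x * e⁻¹) * g by rw [hx]; group,
        hc, mul_inv_cancel_right, hx]
      rw [show g⁻¹ * (g * a * g⁻¹) * g = a by group]
      exact ⟨t, ht⟩
    rw [mem_normalizer_iff_conjSub, hA', conjSub_conjSub,
      show e * g = g * (g⁻¹ * e * g) by group, ← conjSub_conjSub, mem_normalizer_iff_conjSub.1 h1]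
  have hpA : IsPGroup 2 h.A := hS.isP.to_le hS.A_le
  obtain ⟨w, hw⟩ := hS.sylP (A' ⊔ C)
    ((isPGroup_conjSub hpA).to_sup_of_normal_left' (hpA.to_le inf_le_left) hCN)
  have hAcomm : ∀ a ∈ h.A, ∀ b ∈ h.A, a * b = b * a := by
    rintro _ ⟨u, rfl⟩ _ ⟨v, rfl⟩
    rw [← h.ua_add, add_comm, h.ua_add]
  have hApow : ∀ a ∈ h.A, a ^ 2 = 1 := by
    rintro _ ⟨u, rfl⟩
    rw [pow_two, ← h.ua_add, CharTwo.add_self_eq_zero, h.ua_zero]
  have hwA : conjSub w A' = h.A := by
    refine hS.elem_le hgood ((conjSub_mono le_sup_left).trans hw) ?_ ?_ ?_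
    · rw [hA', conjSub_conjSub]
      rintro _ ⟨a, ha, rfl⟩ _ ⟨b, hb, rfl⟩
      rw [← map_mul, hAcomm a ha b hb, map_mul]
    · rw [hA', conjSub_conjSub]
      rintro _ ⟨a, ha, rfl⟩
      rw [← map_pow, hApow a ha, map_one]
    · rw [card_conjSub, hA', card_conjSub, h.card_A]
  have hC2 : Nat.card C ≤ 2 := by
    refine le_trans ?_ (card_pow_eq_one_le (F := F) (p := 2))
    haveI := finite_aut (F := F)
    have hwC : ∀ e : C, w * (e : G) * w⁻¹ ∈ S := fun e =>
      hw (conj_mem_conjSub (Subgroup.mem_sup_right e.2))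
    refine Nat.card_le_card_of_injective (fun e => ⟨hS.θS ⟨_, hwC e⟩, ?_⟩) fun e₁ e₂ h12 => ?_
    · rw [← map_pow, ← map_one hS.θS]
      exact congrArg _ (Subtype.ext (by
        show (w * (e : G) * w⁻¹) ^ 2 = 1
        rw [conj_pow, hApow _ e.2.1, mul_one, mul_inv_cancel]))
    · have h1 : hS.θS (⟨_, hwC e₁⟩ * ⟨_, hwC e₂⟩⁻¹) = 1 := by
        rw [map_mul, map_inv, mul_inv_eq_one]
        exact congrArg Subtype.val h12
      have h2 : w * ((e₁ : G) * (e₂ : G)⁻¹) * w⁻¹ ∈ h.A := by
        have := hS.θS_eq_one.1 h1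
        simpa [mul_assoc] using this
      rw [← hwA] at h2
      have h3 : (e₁ : G) * (e₂ : G)⁻¹ ∈ A' := by
        have := mem_conjSub.1 h2
        simpa [mul_assoc] using this
      by_contra hne
      refine hgN ?_
      obtain ⟨b, hb, hbe⟩ := h3
      have hbe' : g * b * g⁻¹ = (e₁ : G) * (e₂ : G)⁻¹ := hbe
      refine hS.ti hgood hb (fun hb1 => hne (Subtype.ext ?_)) ?_
      · rw [hb1, mul_one, mul_inv_cancel, eq_comm, mul_inv_eq_one] at hbe'
        exact hbe'
      · rw [hbe']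
        exact h.A.mul_mem e₁.2.1 (h.A.inv_mem e₂.2.1)
  have h4 : Nat.card F ≤ 4 := hqC.trans (Nat.mul_le_mul hC2 hC2)
  have h5 := one_lt_fixCard σ
  rw [← hq] at h4 hq4
  apply hq4
  have : fixCard σ = 2 := by nlinarith
  rw [this]
  rfl

/-- Fusion preserves the field automorphism. -/
theorem Syl.θS_conj (hS : h.Syl p S) (hgood : h.Good S) {g : G} (x : S)
    (hgx : g * (x : G) * g⁻¹ ∈ S) : hS.θS ⟨_, hgx⟩ = hS.θS x := by
  obtain ⟨a, haA, ha1, hax⟩ := hS.exists_centralized x
  obtain ⟨b, hbA, hb1, hby⟩ := hS.exists_centralized ⟨_, hgx⟩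
  simp only at hby
  set Cx := Subgroup.centralizer {(x : G)} with hCx
  have haC : a ∈ Cx := Subgroup.mem_centralizer_singleton_iff.2 hax
  have hbC : g⁻¹ * b * g ∈ Cx := by
    refine Subgroup.mem_centralizer_singleton_iff.2 ?_
    calc g⁻¹ * b * g * (x : G) = g⁻¹ * (b * (g * x * g⁻¹)) * g := by group
      _ = g⁻¹ * ((g * x * g⁻¹) * b) * g := by rw [hby]
      _ = (x : G) * (g⁻¹ * b * g) := by group
  have hpA : IsPGroup p h.A := hS.isP.to_le hS.A_le
  have hpa : IsPGroup p (Subgroup.zpowers a) := hpA.to_le (Subgroup.zpowers_le.2 haA)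
  have hpb : IsPGroup p (Subgroup.zpowers (g⁻¹ * b * g)) := by
    refine (isPGroup_conjSub (x := g⁻¹) hpA).to_le (Subgroup.zpowers_le.2 ?_)
    simpa using conj_mem_conjSub (x := g⁻¹) hbA
  obtain ⟨P, hPC, hPp, haP, hconj⟩ := exists_sylow_over (Subgroup.zpowers_le.2 haC) hpa
  obtain ⟨k, hkC, hkP⟩ := hconj _ (Subgroup.zpowers_le.2 hbC) hpb
  obtain ⟨u, hu⟩ := hS.sylP P hPp
  have hua : u * a * u⁻¹ ∈ h.A :=
    hS.strong hgood haA (hu (conj_mem_conjSub (haP (Subgroup.mem_zpowers a))))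
  have huN : u ∈ Subgroup.normalizer (h.A : Set G) := hS.ti hgood haA ha1 hua
  have hub : u * k * g⁻¹ * b * (u * k * g⁻¹)⁻¹ ∈ h.A := by
    refine hS.strong hgood hbA ?_
    rw [show u * k * g⁻¹ * b * (u * k * g⁻¹)⁻¹ = u * (k * (g⁻¹ * b * g) * k⁻¹) * u⁻¹ by group]
    exact hu (conj_mem_conjSub (hkP (conj_mem_conjSub (Subgroup.mem_zpowers _))))
  have hN : k * g⁻¹ ∈ Subgroup.normalizer (h.A : Set G) := by
    have := Subgroup.mul_mem _ (Subgroup.inv_mem _ huN) (hS.ti hgood hbA hb1 hub)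
    simpa [mul_assoc] using this
  have hN' : g * k⁻¹ ∈ Subgroup.normalizer (h.A : Set G) := by simpa using Subgroup.inv_mem _ hN
  have e : g * k⁻¹ * (x : G) * (g * k⁻¹)⁻¹ = g * x * g⁻¹ := by
    have hkx : k * (x : G) = x * k := Subgroup.mem_centralizer_singleton_iff.1 hkC
    calc g * k⁻¹ * (x : G) * (g * k⁻¹)⁻¹ = g * k⁻¹ * ((x : G) * k) * g⁻¹ := by group
      _ = g * (x : G) * g⁻¹ := by rw [← hkx]; group
  have e' : Subgroup.inclusion hS.le_NA ⟨_, hgx⟩ =
      ⟨_, hN'⟩ * Subgroup.inclusion hS.le_NA x * ⟨_, hN'⟩⁻¹ := Subtype.ext e.symm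
  show h.θ _ = h.θ _
  rw [e', map_mul, map_mul, map_inv, ringAut_comm (h.θ ⟨_, hN'⟩), mul_inv_cancel_right]

theorem Syl.coprime_index (hS : h.Syl p S) : Nat.Coprime p S.index := by
  obtain ⟨S₀, hS₀⟩ := hS.isP.exists_le_sylow
  obtain ⟨u, hu⟩ := hS.sylP S₀ S₀.isPGroup'
  have e : S = S₀ := Subgroup.eq_of_le_of_card_ge hS₀
    (by rw [← card_conjSub u (S₀ : Subgroup G)]; exact Subgroup.card_le_of_le hu)
  rw [e, hp.1.coprime_iff_not_dvd]
  exact S₀.not_dvd_index

/-- A normal subgroup containing `L` whose Sylow subgroups are conjugates of the root group. -/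
theorem Syl.exists_normal (hS : h.Syl p S) (hgood : h.Good S) :
    ∃ K : Subgroup G, K.Normal ∧ L ≤ K ∧ ∀ P ≤ K, IsPGroup p P → ∃ u, conjSub u P ≤ h.A := by
  letI : CommGroup (RingAut F) := { (inferInstance : Group (RingAut F)) with mul_comm := ringAut_comm }
  haveI : S.FiniteIndex := Subgroup.finiteIndex_of_finite
  classical
  let τ : G →* RingAut F := MonoidHom.transfer hS.θS
  have hτ : ∀ x : S, τ (x : G) = hS.θS x ^ S.index := by
    intro x
    letI := S.fintypeQuotientOfFiniteIndex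
    rw [show τ (x : G) = MonoidHom.transfer hS.θS (x : G) from rfl,
      MonoidHom.transfer_eq_prod_quotient_orbitRel_zpowers_quot, Subgroup.index_eq_sum_minimalPeriod S (x : G),
      ← Finset.prod_pow_eq_pow_sum]
    refine Finset.prod_congr rfl fun q _ => ?_
    rw [← map_pow]
    set m := Function.minimalPeriod ((x : G) • ·) q.out
    have hmem := QuotientGroup.out_conj_pow_minimalPeriod_mem S (x : G) q.out
    have := hS.θS_conj hgood (g := (q.out.out)⁻¹) (x ^ m)
      (by rw [inv_inv]; exact hmem)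
    rw [← this]
    exact congrArg _ (Subtype.ext (by simp only [inv_inv, Subgroup.coe_pow]; rfl))
  have hA : ∀ a ∈ h.A, τ a = 1 := fun a ha => by
    have := hτ ⟨a, hS.A_le ha⟩
    rw [hS.θS_eq_one.2 ha, one_pow] at this
    exact this
  refine ⟨τ.ker, inferInstance, h.le_of_roots (fun t => hA _ (h.ua_mem_A t)) fun t => ?_, ?_⟩
  · obtain ⟨w, -, hw⟩ := h.surj 0 1 (-1) 0 (by ring)
    have e : h.ub t * w = w * h.ua (-t) := h.ext fun v => by
      simp only [h.act_mul, hw, h.ua_apply, h.ub_apply]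
      ext <;> simp only <;> ring
    have := congrArg τ e
    rw [map_mul, map_mul, hA _ (h.ua_mem_A _), mul_one] at this
    rw [MonoidHom.mem_ker]
    exact mul_eq_right.1 this
  · intro P hP hPp
    obtain ⟨u, hu⟩ := hS.sylP P hPp
    refine ⟨u, fun y hy => ?_⟩
    have hyK : τ y = 1 := by
      obtain ⟨z, hz, rfl⟩ := hy
      show τ (u * z * u⁻¹) = 1
      rw [map_mul, map_mul, MonoidHom.mem_ker.1 (hP hz), mul_one, ← map_mul, mul_inv_cancel, map_one]
    refine (hS.θS_eq_one (x := ⟨y, hu hy⟩)).1 ?_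
    obtain ⟨n, hn⟩ := hS.exists_pow (hu hy)
    have h1 : hS.θS ⟨y, hu hy⟩ ^ S.index = 1 := by
      rw [← hτ]
      exact hyK
    have h2 : hS.θS ⟨y, hu hy⟩ ^ p ^ n = 1 := by
      rw [← map_pow, ← map_one hS.θS]
      exact congrArg _ (Subtype.ext hn)
    have := pow_gcd_eq_one.2 ⟨h1, h2⟩
    rwa [(hS.coprime_index.pow_left n).symm.gcd_eq_one, pow_one] at this

end Nat2

end CfsgLib.MinParFF.SL2Emb
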